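import Cfsg.Agent.Lib.ClassSizesPSL.Counting
import Cfsg.Agent.Lib.ClassSizesPSL.Zassenhaus

/-!
A group of order `q(q² - 1)` with the centraliser orders of `PSL₂(q)`, `q` even, is `PGL₂(q)`.
-/

set_option autoImplicit false
set_option linter.unusedSectionVars false
set_option linter.style.haveILetI false

open Finset

namespace CfsgLib.ClassSizesPSL

/-- A group of order `q(q² - 1)`, `q = 2 ^ f ≥ 4`, all whose centralisers of non-identity elements
have order `q`, `q - 1` or `q + 1`, is `PGL₂(q)`, and its Sylow 2-subgroups are abelian. -/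
theorem even_case {H : Type*} [Group H] [Finite H] {f q : ℕ} (hqf : q = 2 ^ f) (hq4 : 4 ≤ q)
    (hH : Nat.card H = q * (q - 1) * (q + 1))
    (hc : ∀ y : H, y ≠ 1 → Nat.card (Subgroup.centralizer ({y} : Set H)) = q ∨
      Nat.card (Subgroup.centralizer ({y} : Set H)) = q - 1 ∨
      Nat.card (Subgroup.centralizer ({y} : Set H)) = q + 1) :
    ∃ (K : Type) (_ : Field K) (_ : Fintype K), Fintype.card K = q ∧
      Nonempty (H ≃* Matrix.ProjGenLinGroup (Fin 2) K) := by
  classical
  haveI := Fintype.ofFinite H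
  have h2q : 2 ∣ q := by
    rw [hqf]
    refine dvd_pow_self 2 ?_
    rintro rfl
    rw [pow_zero] at hqf; omega
  obtain ⟨q', hq'⟩ : ∃ q', q = q' + 4 := ⟨q - 4, by omega⟩
  set w := (q - 1) * (q + 1) with hw
  have hHw : Nat.card H = q * w := by rw [hH, hw, mul_assoc]
  have hwq : w + 1 = q * q := by rw [hw, hq', show q' + 4 - 1 = q' + 3 from rfl]; ring
  set cc : H → ℕ := fun y => Nat.card (Subgroup.centralizer ({y} : Set H)) with hcc
  have hpow : ∀ y : H, y ^ cc y = 1 := pow_card_centralizer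
  have hci : ∀ y, cc y * (Subgroup.centralizer ({y} : Set H)).index = q * w := fun y => by
    rw [← hHw]; exact (Subgroup.centralizer ({y} : Set H)).card_mul_index
  have hconjc : ∀ g y : H, cc (g * y * g⁻¹) = cc y := fun g y =>
    (Nat.card_congr (ElementOrders.card_centralizer_conj g y).some.toEquiv).symm
  set U := univ.filter (fun y : H => y ≠ 1 ∧ cc y = q) with hUd
  have hUmem : ∀ y, y ∈ U ↔ y ≠ 1 ∧ cc y = q := fun y => by simp [hUd]
  have hiq : ∀ y, cc y = q → (Subgroup.centralizer ({y} : Set H)).index = w := fun y h => by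
    have h' := hci y; rw [h] at h'
    exact Nat.eq_of_mul_eq_mul_left (by omega) h'
  have hUeq : univ.filter (fun y : H => y ≠ 1 ∧ y ^ q = 1) = U := by
    ext y
    simp only [Finset.mem_filter, Finset.mem_univ, true_and, hUd]
    refine ⟨fun ⟨h1, h⟩ => ⟨h1, ?_⟩, fun ⟨h1, h⟩ => ⟨h1, h ▸ hpow y⟩⟩
    have key : ∀ c, ¬ 2 ∣ c → cc y ≠ c := fun c hco e => h1 (by
      have := pow_gcd_eq_one.2 ⟨h, (e ▸ hpow y : y ^ c = 1)⟩
      rwa [show Nat.gcd q c = 1 from hqf ▸ ((Nat.prime_two.coprime_iff_not_dvd).2 hco).pow_left f,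
        pow_one] at this)
    rcases hc y h1 with e | e | e
    · exact e
    · exact absurd e (key _ (by omega))
    · exact absurd e (key _ (by omega))
  obtain ⟨nU, hnU⟩ : w ∣ #U := dvd_card_of_forall U
    (fun y hy g => (hUmem _).2 ⟨fun e => ((hUmem y).1 hy).1 (conj_eq_one_iff.1 e),
      (hconjc g y).trans ((hUmem y).1 hy).2⟩)
    (fun y hy => (hiq y ((hUmem y).1 hy).2).symm.dvd)
  have hn1 : nU = 1 := by
    have h := dvd_succ_card_pow (H := H) (n := q) ⟨w, hHw⟩
    rw [hUeq, hnU] at h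
    have hlt : nU < q := by
      have hle : #(insert 1 U) ≤ #(univ : Finset H) := Finset.card_le_card (Finset.subset_univ _)
      rw [Finset.card_insert_of_notMem (fun e => ((hUmem 1).1 e).1 rfl), Finset.card_univ,
        ← Nat.card_eq_fintype_card, hHw, hnU] at hle
      by_contra hge
      have := Nat.mul_le_mul_left w (not_lt.1 hge)
      linarith
    have hz : (q : ℤ) ∣ ((1 : ℤ) - nU) := by
      have h' : (q : ℤ) ∣ ((1 : ℤ) + w * nU) := by exact_mod_cast h
      have hwq' : (w : ℤ) + 1 = q * q := by exact_mod_cast hwq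
      have e : (1 : ℤ) - nU = ((1 : ℤ) + w * nU) - (nU * q) * q := by
        linear_combination (-(nU : ℤ)) * hwq'
      rw [e]
      exact dvd_sub h' (dvd_mul_left _ _)
    have habs : |(1 : ℤ) - nU| < q := by rw [abs_lt]; constructor <;> omega
    have := Int.eq_zero_of_abs_lt_dvd hz habs
    omega
  have hUc : #U = w := by rw [hnU, hn1, mul_one]
  -- an involution, and its class
  haveI : Fact (Nat.Prime 2) := ⟨Nat.prime_two⟩
  obtain ⟨t, ht⟩ := exists_prime_orderOf_dvd_card' (G := H) 2 (h2q.trans ⟨w, hHw⟩)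
  have ht1 : t ≠ 1 := fun e => by rw [e, orderOf_one] at ht; omega
  have htU : t ∈ U := by
    rw [← hUeq]
    refine Finset.mem_filter.2 ⟨Finset.mem_univ _, ht1, ?_⟩
    rw [← orderOf_dvd_iff_pow_eq_one, ht]; exact h2q
  have htc : cc t = q := ((hUmem t).1 htU).2
  have hcls : univ.filter (fun z => IsConj t z) = U := by
    refine Finset.eq_of_subset_of_card_le (fun z hz => ?_) (by rw [card_class, hiq t htc, hUc])
    obtain ⟨g, rfl⟩ := isConj_iff.1 (Finset.mem_filter.1 hz).2
    exact (hUmem _).2 ⟨fun e => ht1 (conj_eq_one_iff.1 e), (hconjc g t).trans htc⟩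
  set Q := Subgroup.centralizer ({t} : Set H) with hQd
  have hQc : Nat.card Q = q := htc
  have hQU : ∀ c ∈ Q, c ≠ 1 → c ∈ U := fun c hcQ hc1 => by
    rw [← hUeq]
    refine Finset.mem_filter.2 ⟨Finset.mem_univ _, hc1, ?_⟩
    have := pow_card_eq_one' (G := Q) (x := ⟨c, hcQ⟩)
    rw [hQc] at this
    exact congrArg Subtype.val this
  have hsq : ∀ c ∈ Q, c * c = 1 := fun c hcQ => by
    by_cases hc1 : c = 1
    · rw [hc1, one_mul]
    have := hQU c hcQ hc1
    rw [← hcls] at this
    obtain ⟨g, rfl⟩ := isConj_iff.1 (Finset.mem_filter.1 this).2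
    calc g * t * g⁻¹ * (g * t * g⁻¹) = g * (t * t) * g⁻¹ := by group
      _ = 1 := by rw [← pow_two, ← ht, pow_orderOf_eq_one]; group
  have hQC : ∀ c ∈ Q, c ≠ 1 → Subgroup.centralizer ({c} : Set H) = Q := fun c hcQ hc1 => by
    refine (Subgroup.eq_of_le_of_card_ge (fun d hd => ?_) (((hUmem c).1 (hQU c hcQ hc1)).2.trans hQc.symm).le).symm
    rw [Subgroup.mem_centralizer_singleton_iff]
    have h := hsq _ (Q.mul_mem hd hcQ)
    calc d * c = (d * c)⁻¹ := (inv_eq_of_mul_eq_one_right h).symm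
      _ = c * d := by
        rw [mul_inv_rev, inv_eq_of_mul_eq_one_right (hsq c hcQ), inv_eq_of_mul_eq_one_right (hsq d hd)]
  set N := Subgroup.normalizer (Q : Set H) with hNd
  let φ : (H ⧸ N) × {c : Q // c ≠ 1} → U := fun z => ⟨z.1.out * (z.2.1 : H) * z.1.out⁻¹, by
    rw [hUmem]
    exact ⟨fun e => z.2.2 (Subtype.ext (conj_eq_one_iff.1 e)),
      (hconjc _ _).trans ((hUmem _).1 (hQU _ z.2.1.2 fun e => z.2.2 (Subtype.ext e))).2⟩⟩
  have hφ : Function.Bijective φ := by
    constructor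
    · rintro ⟨a, c⟩ ⟨b, d⟩ h
      have h' : a.out * (c.1 : H) * a.out⁻¹ = b.out * (d.1 : H) * b.out⁻¹ := congrArg Subtype.val h
      have he : (b.out⁻¹ * a.out) * (c.1 : H) * (b.out⁻¹ * a.out)⁻¹ = (d.1 : H) := by
        calc (b.out⁻¹ * a.out) * (c.1 : H) * (b.out⁻¹ * a.out)⁻¹
            = b.out⁻¹ * (a.out * (c.1 : H) * a.out⁻¹) * b.out := by group
          _ = _ := by rw [h']; group
      have hab : b = a := by
        rw [← QuotientGroup.out_eq' a, ← QuotientGroup.out_eq' b]
        refine QuotientGroup.eq.2 ?_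
        show _ ∈ Subgroup.normalizer (Q : Set H)
        rw [Subgroup.mem_normalizer_iff]
        intro x
        have hc' := hQC _ c.1.2 (fun e => c.2 (Subtype.ext e))
        have hd' := hQC _ d.1.2 (fun e => d.2 (Subtype.ext e))
        conv_lhs => rw [← hc']
        conv_rhs => rw [← hd']
        rw [Subgroup.mem_centralizer_singleton_iff, Subgroup.mem_centralizer_singleton_iff, ← he]
        generalize b.out⁻¹ * a.out = g
        rw [show g * x * g⁻¹ * (g * (c.1 : H) * g⁻¹) = g * (x * c.1) * g⁻¹ by group,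
          show g * (c.1 : H) * g⁻¹ * (g * x * g⁻¹) = g * (c.1 * x) * g⁻¹ by group]
        exact ⟨fun e => by rw [e], fun e => mul_left_cancel (mul_right_cancel e)⟩
      subst hab
      exact Prod.ext rfl (Subtype.ext (Subtype.ext (mul_left_cancel (mul_right_cancel h'))))
    · rintro ⟨u, hu⟩
      obtain ⟨hu1, -⟩ := (hUmem u).1 hu
      rw [← hcls] at hu
      obtain ⟨g, hg⟩ := isConj_iff.1 (Finset.mem_filter.1 hu).2
      obtain ⟨n, hn⟩ := QuotientGroup.mk_out_eq_mul N g
      have hc' : ((g : H ⧸ N).out)⁻¹ * u * (g : H ⧸ N).out ∈ Q := by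
        rw [hn, ← hg, show (g * (n : H))⁻¹ * (g * t * g⁻¹) * (g * (n : H)) = (n : H)⁻¹ * t * (n : H) by group]
        exact (Subgroup.mem_normalizer_iff''.1 n.2 _).1 (Subgroup.mem_centralizer_singleton_iff.2 rfl)
      refine ⟨(g, ⟨⟨_, hc'⟩, fun e => hu1 ?_⟩), Subtype.ext ?_⟩
      · have e' : ((g : H ⧸ N).out)⁻¹ * u * (g : H ⧸ N).out = 1 := congrArg Subtype.val e
        simpa using conj_eq_one_iff.1 (show ((g : H ⧸ N).out)⁻¹ * u * ((g : H ⧸ N).out)⁻¹⁻¹ = 1 by
          rw [inv_inv]; exact e')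
      · show (g : H ⧸ N).out * (((g : H ⧸ N).out)⁻¹ * u * (g : H ⧸ N).out) * ((g : H ⧸ N).out)⁻¹ = u
        group
  have hidx : N.index = q + 1 := by
    have h1 := Nat.card_congr (Equiv.ofBijective φ hφ)
    rw [Nat.card_prod, ← Subgroup.index_eq_card] at h1
    haveI := Fintype.ofFinite Q
    rw [Nat.card_eq_fintype_card (α := U), Fintype.card_coe, hUc,
      Nat.card_eq_fintype_card (α := {c : Q // c ≠ 1}), Fintype.card_subtype_compl,
      Fintype.card_subtype_eq, ← Nat.card_eq_fintype_card, hQc] at h1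
    refine Nat.eq_of_mul_eq_mul_right (show 0 < q - 1 by omega) (h1.trans ?_)
    rw [hw, mul_comm]
  have hcN : Nat.card N = q * (q - 1) := by
    have h1 := N.card_mul_index
    rw [hidx, hH] at h1
    exact Nat.eq_of_mul_eq_mul_right (show 0 < q + 1 by omega) h1
  refine (recognition Q hQc hQC hidx hcN (by omega) ?_ (by omega) fun z hz => ?_).2 (by omega) h2q
  · rw [hqf]
    exact ((Nat.prime_two.coprime_iff_not_dvd).2 (by omega)).pow_left f
  · have h' := hci z
    rcases hc z hz with e | e | e <;> rw [show cc z = _ from e] at h'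
    · rw [Nat.eq_of_mul_eq_mul_left (by omega) h', hw]
      nlinarith [show 3 ≤ q - 1 by omega]
    · have : (Subgroup.centralizer ({z} : Set H)).index = q * (q + 1) := by
        refine Nat.eq_of_mul_eq_mul_left (show 0 < q - 1 by omega) (h'.trans ?_)
        rw [hw]; ring
      rw [this]; nlinarith
    · have : (Subgroup.centralizer ({z} : Set H)).index = q * (q - 1) := by
        refine Nat.eq_of_mul_eq_mul_left (show 0 < q + 1 by omega) (h'.trans ?_)
        rw [hw]; ring
      rw [this]; nlinarith [show 3 ≤ q - 1 by omega]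

end CfsgLib.ClassSizesPSL
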