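import Cfsg.Agent.Lib.ClassSizesPSL.Counting
import Cfsg.Agent.Lib.ClassSizesPSL.Zassenhaus
import Cfsg.Agent.Lib.SectRank.BSW.Main

/-!
A group of order `q(q² - 1)/2` with the centraliser orders of `PSL₂(q)`, `q` odd, is `PSL₂(q)`.
-/

set_option autoImplicit false
set_option linter.unusedSectionVars false
set_option linter.style.haveILetI false

open Finset

namespace CfsgLib.ClassSizesPSL

/-- The centraliser orders of `PSL₂(q)`, `q = ℓ + m` odd. -/
structure OddParams (H : Type*) [Group H] (q ℓ m : ℕ) : Prop where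
  hq : q = ℓ + m
  hlm : ℓ = m + 1 ∨ m = ℓ + 1
  hl : Even ℓ
  hl4 : 4 ≤ ℓ
  hm3 : 3 ≤ m
  hH : Nat.card H = 2 * (q * ℓ * m)
  hc : ∀ y : H, y ≠ 1 → Nat.card (Subgroup.centralizer ({y} : Set H)) = q ∨
      Nat.card (Subgroup.centralizer ({y} : Set H)) = m ∨
      Nat.card (Subgroup.centralizer ({y} : Set H)) = ℓ ∨
      Nat.card (Subgroup.centralizer ({y} : Set H)) = 2 * ℓ

namespace OddParams

variable {H : Type*} [Group H] {q ℓ m : ℕ} (h : OddParams H q ℓ m)

/-- The order of a centraliser. -/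
noncomputable abbrev cc (y : H) : ℕ := Nat.card (Subgroup.centralizer ({y} : Set H))

include h

theorem q_odd : ¬ 2 ∣ q := by
  obtain ⟨c, hc⟩ := h.hl; have := h.hq; have := h.hlm; omega

theorem q_seven : 7 ≤ q := by have := h.hq; have := h.hl4; have := h.hm3; omega

theorem q_sq : q * q = 4 * (ℓ * m) + 1 := by
  rw [h.hq]; rcases h.hlm with e | e <;> rw [e] <;> ring

theorem cop_lm : Nat.Coprime ℓ m := by rcases h.hlm with e | e <;> rw [e] <;> simp

theorem cop_qm : Nat.Coprime q m := by rw [h.hq, Nat.coprime_add_self_left]; exact h.cop_lm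

theorem cop_ql : Nat.Coprime q ℓ := by rw [h.hq, Nat.coprime_self_add_left]; exact h.cop_lm.symm

theorem cop_q2l : Nat.Coprime q (2 * ℓ) :=
  Nat.Coprime.mul_right ((Nat.prime_two.coprime_iff_not_dvd).2 h.q_odd).symm h.cop_ql

theorem cop_m2l : Nat.Coprime m (2 * ℓ) := by
  refine Nat.Coprime.mul_right ((Nat.prime_two.coprime_iff_not_dvd).2 ?_).symm h.cop_lm.symm
  obtain ⟨c, hc⟩ := h.hl; have := h.hlm; omega

theorem distinct : q ≠ m ∧ q ≠ ℓ ∧ q ≠ 2 * ℓ ∧ m ≠ ℓ ∧ m ≠ 2 * ℓ := by
  obtain ⟨c, hc⟩ := h.hl; have := h.hq; have := h.hlm; have := h.hm3; have := h.hl4; omega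

theorem cc_mul_index (y : H) :
    cc y * (Subgroup.centralizer ({y} : Set H)).index = 2 * (q * ℓ * m) := by
  rw [← h.hH]; exact (Subgroup.centralizer ({y} : Set H)).card_mul_index

theorem index_q {y : H} (e : cc y = q) : (Subgroup.centralizer ({y} : Set H)).index = 2 * ℓ * m := by
  have h' := h.cc_mul_index y; rw [e] at h'; have := h.q_seven
  exact Nat.eq_of_mul_eq_mul_left (show 0 < q by omega) (h'.trans (by ring))

theorem index_m {y : H} (e : cc y = m) : (Subgroup.centralizer ({y} : Set H)).index = 2 * q * ℓ := by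
  have h' := h.cc_mul_index y; rw [e] at h'; have := h.hm3
  exact Nat.eq_of_mul_eq_mul_left (show 0 < m by omega) (h'.trans (by ring))

theorem index_l {y : H} (e : cc y = ℓ) : (Subgroup.centralizer ({y} : Set H)).index = 2 * q * m := by
  have h' := h.cc_mul_index y; rw [e] at h'; have := h.hl4
  exact Nat.eq_of_mul_eq_mul_left (show 0 < ℓ by omega) (h'.trans (by ring))

theorem index_2l {y : H} (e : cc y = 2 * ℓ) : (Subgroup.centralizer ({y} : Set H)).index = q * m := by
  have h' := h.cc_mul_index y; rw [e] at h'; have := h.hl4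
  exact Nat.eq_of_mul_eq_mul_left (show 0 < 2 * ℓ by omega) (h'.trans (by ring))

omit h

theorem cc_conj (g y : H) : cc (g * y * g⁻¹) = cc y :=
  (Nat.card_congr (ElementOrders.card_centralizer_conj g y).some.toEquiv).symm

theorem conj_ne_one (g : H) {y : H} (hy : y ≠ 1) : g * y * g⁻¹ ≠ 1 :=
  fun e => hy (conj_eq_one_iff.1 e)

variable [Fintype H] [DecidableEq H]

variable (H q ℓ m) in
/-- The elements with centraliser order `n`. -/
noncomputable def withCC (n : ℕ) : Finset H := univ.filter fun y => y ≠ 1 ∧ cc y = n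

variable (H) in
/-- The involutions. -/
def invols : Finset H := univ.filter fun a : H => a ≠ 1 ∧ a * a = 1

theorem mem_withCC {n : ℕ} {y : H} : y ∈ withCC H n ↔ y ≠ 1 ∧ cc y = n := by simp [withCC]

theorem mem_invols {a : H} : a ∈ invols H ↔ a ≠ 1 ∧ a * a = 1 := mem_invol

theorem invols_conj {a : H} (ha : a ∈ invols H) (g : H) : g * a * g⁻¹ ∈ invols H := by
  obtain ⟨h1, h2⟩ := mem_invols.1 ha
  refine mem_invols.2 ⟨conj_ne_one g h1, ?_⟩
  calc g * a * g⁻¹ * (g * a * g⁻¹) = g * (a * a) * g⁻¹ := by group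
    _ = 1 := by rw [h2]; group

theorem mem_invols_of_orderOf {a : H} (ha : orderOf a = 2) : a ∈ invols H :=
  mem_invols.2 ⟨fun e => by rw [e, orderOf_one] at ha; omega,
    by rw [← pow_two, ← ha, pow_orderOf_eq_one]⟩

theorem orderOf_invol {a : H} (ha : a ∈ invols H) : orderOf a = 2 :=
  orderOf_eq_prime (by rw [pow_two]; exact (mem_invols.1 ha).2) (mem_invols.1 ha).1

/-- The elements whose centraliser has order `ℓ` or `2ℓ`. -/
noncomputable def elts2 (H : Type*) [Group H] [Fintype H] [DecidableEq H] (ℓ : ℕ) : Finset H :=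
  withCC H ℓ ∪ withCC H (2 * ℓ)

theorem mem_elts2 {y : H} : y ∈ elts2 H ℓ ↔ y ≠ 1 ∧ (cc y = ℓ ∨ cc y = 2 * ℓ) := by
  simp only [elts2, Finset.mem_union, mem_withCC]; tauto

include h

theorem sum_partition (f : H → ℕ) :
    ∑ y : H, f y = f 1 + ∑ y ∈ withCC H q, f y + ∑ y ∈ withCC H m, f y + ∑ y ∈ elts2 H ℓ, f y := by
  obtain ⟨d1, d2, d3, d4, d5⟩ := h.distinct
  have e : (univ : Finset H) = ((({1} : Finset H) ∪ withCC H q) ∪ withCC H m) ∪ elts2 H ℓ := by
    ext y
    simp only [Finset.mem_univ, Finset.mem_union, Finset.mem_singleton, mem_withCC, mem_elts2, true_iff]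
    by_cases h1 : y = 1
    · exact Or.inl (Or.inl (Or.inl h1))
    · rcases h.hc y h1 with e | e | e | e
      · exact Or.inl (Or.inl (Or.inr ⟨h1, e⟩))
      · exact Or.inl (Or.inr ⟨h1, e⟩)
      · exact Or.inr ⟨h1, Or.inl e⟩
      · exact Or.inr ⟨h1, Or.inr e⟩
  rw [e, Finset.sum_union, Finset.sum_union, Finset.sum_union, Finset.sum_singleton]
  · rw [Finset.disjoint_singleton_left, mem_withCC]; exact fun e => e.1 rfl
  · rw [Finset.disjoint_left]
    intro y hy hy'
    simp only [Finset.mem_union, Finset.mem_singleton, mem_withCC] at hy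
    rw [mem_withCC] at hy'
    rcases hy with e | e
    · exact hy'.1 e
    · exact d1 (e.2.symm.trans hy'.2)
  · rw [Finset.disjoint_left]
    intro y hy hy'
    simp only [Finset.mem_union, Finset.mem_singleton, mem_withCC] at hy
    rw [mem_elts2] at hy'
    rcases hy with (e | e) | e
    · exact hy'.1 e
    · rcases hy'.2 with e' | e'
      · exact d2 (e.2.symm.trans e')
      · exact d3 (e.2.symm.trans e')
    · rcases hy'.2 with e' | e'
      · exact d4 (e.2.symm.trans e')
      · exact d5 (e.2.symm.trans e')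

theorem card_partition :
    Nat.card H = 1 + #(withCC H q) + #(withCC H m) + #(elts2 H ℓ) := by
  have := h.sum_partition (fun _ => 1)
  simp only [Finset.sum_const, smul_eq_mul, mul_one, Finset.card_univ] at this
  rwa [Nat.card_eq_fintype_card]

theorem mem_elts2_of_even {y : H} (h1 : y ≠ 1) (h2 : 2 ∣ cc y) : y ∈ elts2 H ℓ := by
  refine mem_elts2.2 ⟨h1, ?_⟩
  rcases h.hc y h1 with e | e | e | e
  · exact absurd (show 2 ∣ q by rw [← e]; exact h2) h.q_odd
  · exfalso
    obtain ⟨c, hc⟩ := h.hl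
    have := h.hlm
    change cc y = m at e; omega
  · exact Or.inl e
  · exact Or.inr e

theorem two_dvd_cc {y : H} (hy : y ∈ elts2 H ℓ) : 2 ∣ cc y := by
  obtain ⟨c, hc⟩ := h.hl
  rcases (mem_elts2.1 hy).2 with e | e <;> omega

theorem withCC_eq_pow {n : ℕ} (hn : n = q ∨ n = m) :
    univ.filter (fun y : H => y ≠ 1 ∧ y ^ n = 1) = withCC H n := by
  ext y
  simp only [Finset.mem_filter, Finset.mem_univ, true_and, mem_withCC]
  refine ⟨fun ⟨h1, hy⟩ => ⟨h1, ?_⟩, fun ⟨h1, e⟩ => ⟨h1, e ▸ pow_card_centralizer y⟩⟩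
  have key : ∀ c, n.Coprime c → cc y ≠ c := fun c hco e => h1 (by
    have := pow_gcd_eq_one.2 ⟨hy, (e ▸ pow_card_centralizer y : y ^ c = 1)⟩
    rwa [hco.gcd_eq_one, pow_one] at this)
  rcases hn with rfl | rfl
  · rcases h.hc y h1 with e | e | e | e
    · exact e
    · exact absurd e (key _ h.cop_qm)
    · exact absurd e (key _ h.cop_ql)
    · exact absurd e (key _ h.cop_q2l)
  · rcases h.hc y h1 with e | e | e | e
    · exact absurd e (key _ h.cop_qm.symm)
    · exact e
    · exact absurd e (key _ h.cop_lm.symm)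
    · exact absurd e (key _ h.cop_m2l)

theorem card_withCC_q : #(withCC H q) = 4 * (ℓ * m) := by
  obtain ⟨nU, hnU⟩ : 2 * ℓ * m ∣ #(withCC H q) := dvd_card_of_forall _
    (fun y hy g => mem_withCC.2 ⟨conj_ne_one g (mem_withCC.1 hy).1,
      (cc_conj g y).trans (mem_withCC.1 hy).2⟩)
    (fun y hy => (h.index_q (mem_withCC.1 hy).2).symm.dvd)
  have hd := dvd_succ_card_pow (H := H) (n := q) ⟨2 * ℓ * m, by rw [h.hH]; ring⟩
  rw [h.withCC_eq_pow (Or.inl rfl), hnU] at hd
  have hlt : nU < q := by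
    by_contra hle
    have := Nat.mul_le_mul_left (2 * ℓ * m) (not_lt.1 hle)
    have hcard := h.card_partition
    rw [h.hH, hnU] at hcard
    nlinarith
  have hz : (q : ℤ) ∣ ((2 : ℤ) - nU) := by
    have h' : (q : ℤ) ∣ ((1 : ℤ) + 2 * ℓ * m * nU) := by exact_mod_cast hd
    have hqq : (q : ℤ) * q = 4 * (ℓ * m) + 1 := by exact_mod_cast h.q_sq
    have e : (2 : ℤ) - nU = 2 * ((1 : ℤ) + 2 * ℓ * m * nU) - (nU * q) * q := by
      linear_combination (nU : ℤ) * hqq
    rw [e]
    exact dvd_sub (h'.mul_left 2) (dvd_mul_left _ _)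
  have h7 := h.q_seven
  have habs : |(2 : ℤ) - nU| < q := by rw [abs_lt]; constructor <;> omega
  have h0 := Int.eq_zero_of_abs_lt_dvd hz habs
  have h2 : nU = 2 := by omega
  rw [hnU, h2]; ring

theorem card_withCC_m : #(withCC H m) + q * ℓ = q * ℓ * m := by
  obtain ⟨nS, hnS⟩ : 2 * q * ℓ ∣ #(withCC H m) := dvd_card_of_forall _
    (fun y hy g => mem_withCC.2 ⟨conj_ne_one g (mem_withCC.1 hy).1,
      (cc_conj g y).trans (mem_withCC.1 hy).2⟩)
    (fun y hy => (h.index_m (mem_withCC.1 hy).2).symm.dvd)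
  have hd := dvd_succ_card_pow (H := H) (n := m) ⟨2 * q * ℓ, by rw [h.hH]; ring⟩
  rw [h.withCC_eq_pow (Or.inr rfl), hnS] at hd
  have hlt : nS < m := by
    by_contra hle
    have := Nat.mul_le_mul_left (2 * q * ℓ) (not_lt.1 hle)
    have hcard := h.card_partition
    rw [h.hH, hnS] at hcard
    nlinarith
  have hz : (m : ℤ) ∣ (2 * (nS : ℤ) + 1) := by
    have h' : (m : ℤ) ∣ ((1 : ℤ) + 2 * q * ℓ * nS) := by exact_mod_cast hd
    obtain ⟨w, hw⟩ := h'
    have hq' : (q : ℤ) = ℓ + m := by exact_mod_cast h.hq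
    rcases h.hlm with e | e
    · have e' : (ℓ : ℤ) = m + 1 := by exact_mod_cast e
      exact ⟨w - 2 * nS * ℓ - 2 * nS * (m + 2), by rw [hq', e'] at hw; rw [e']; linear_combination hw⟩
    · have e' : (m : ℤ) = ℓ + 1 := by exact_mod_cast e
      exact ⟨w - 2 * nS * ℓ - 2 * nS * (m - 2), by rw [hq', e'] at hw; rw [e']; linear_combination hw⟩
  have hz' : m ∣ 2 * nS + 1 := by exact_mod_cast hz
  obtain ⟨k, hk⟩ := hz'
  have hm : 2 * nS + 1 = m := by
    rcases k with _ | _ | k
    · omega
    · omega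
    · exfalso; nlinarith
  rw [hnS, ← hm]; ring

theorem card_elts2 : #(elts2 H ℓ) + q * m = q * m * ℓ := by
  have hcard := h.card_partition
  rw [h.hH, h.card_withCC_q] at hcard
  have h1 : q * q = q * ℓ + q * m := by rw [← mul_add, ← h.hq]
  have := h.q_sq; have := h.card_withCC_m
  linarith

theorem invols_subset : invols H ⊆ elts2 H ℓ := fun a ha => by
  refine h.mem_elts2_of_even (mem_invols.1 ha).1 ?_
  rw [← orderOf_invol ha]
  exact Subgroup.orderOf_dvd_natCard _ (Subgroup.mem_centralizer_singleton_iff.2 rfl)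

theorem sum_le_withCC (n : ℕ) :
    ∑ y ∈ withCC H n, #(pairsAt (invols H) y) ≤ #(withCC H n) * n := by
  rw [← smul_eq_mul]
  exact Finset.sum_le_card_nsmul _ _ _ fun y hy => (mem_withCC.1 hy).2 ▸ card_pairsAt_le y

theorem card_invols : #(invols H) = q * m := by
  obtain ⟨j, hj⟩ : q * m ∣ #(invols H) := dvd_card_of_forall _ (fun a ha g => invols_conj ha g) fun a ha => by
    rcases (mem_elts2.1 (h.invols_subset ha)).2 with e | e
    · exact (show q * m ∣ 2 * q * m from ⟨2, by ring⟩).trans (h.index_l e).symm.dvd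
    · exact (h.index_2l e).symm.dvd
  rcases j with _ | _ | j
  · exfalso
    haveI : Fact (Nat.Prime 2) := ⟨Nat.prime_two⟩
    obtain ⟨a, ha⟩ := exists_prime_orderOf_dvd_card' 2 (show 2 ∣ Nat.card H from h.hH ▸ dvd_mul_right 2 _)
    have := Finset.card_pos.2 ⟨a, mem_invols_of_orderOf (H := H) ha⟩
    omega
  · simp [hj]
  exfalso
  have hle := Finset.card_le_card h.invols_subset
  have hR := h.card_elts2
  have hS := h.card_withCC_m
  have hPU := h.sum_le_withCC q
  have hPS := h.sum_le_withCC m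
  have hP1 : #(pairsAt (invols H) 1) ≤ #(invols H) := Finset.card_filter_le _ _
  have hPR : ∑ y ∈ elts2 H ℓ, #(pairsAt (invols H) y) ≤ #(elts2 H ℓ) * (2 * ℓ) := by
    rw [← smul_eq_mul]
    refine Finset.sum_le_card_nsmul _ _ _ fun y hy => (card_pairsAt_le y).trans ?_
    rcases (mem_elts2.1 hy).2 with e | e <;> change cc y ≤ _ <;> omega
  have hsum := (h.sum_partition fun y => #(pairsAt (invols H) y)).symm.trans (sum_pairsAt (invols H))
  have h2 : #(invols H) * #(invols H) ≤
      #(invols H) + #(withCC H q) * q + #(withCC H m) * m + #(elts2 H ℓ) * (2 * ℓ) := by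
    rw [← hsum]; linarith
  rw [hj, h.card_withCC_q] at h2
  have h21 : 21 ≤ q * m := Nat.mul_le_mul h.q_seven h.hm3
  have hS' : #(withCC H m) * m + q * ℓ * m = q * ℓ * m * m := by rw [← add_mul, hS]
  have hR' : #(elts2 H ℓ) * (2 * ℓ) + q * m * (2 * ℓ) = q * m * ℓ * (2 * ℓ) := by rw [← add_mul, hR]
  have h3 : (q * m) * ((q * m) * (j + 2) * (j + 2) + 2 * ℓ + ℓ) ≤
      (q * m) * ((j + 2) + 4 * ℓ + ℓ * m + 2 * (ℓ * ℓ)) := by linarith
  have h4 := Nat.le_of_mul_le_mul_left h3 (by omega)
  have hjl : j + 2 < ℓ := by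
    by_contra hlt
    have := Nat.mul_le_mul_left (q * m) (not_lt.1 hlt)
    rw [hj] at hle
    linarith
  have h5 : q * m * 4 ≤ q * m * (j + 2) * (j + 2) := by
    rw [mul_assoc _ (j + 2)]
    exact Nat.mul_le_mul_left _ (Nat.mul_le_mul (le_add_left le_rfl) (le_add_left le_rfl) : 2 * 2 ≤ _)
  have h6 : q * m = ℓ * m + m * m := by rw [h.hq]; ring
  have hle1 : ℓ ≤ m + 1 := by have := h.hlm; omega
  have h7 : ℓ * ℓ ≤ ℓ * (m + 1) := Nat.mul_le_mul_left ℓ hle1
  have h8 : 3 * m ≤ m * m := Nat.mul_le_mul_right m h.hm3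
  have h9 : ℓ * 3 ≤ ℓ * m := Nat.mul_le_mul_left ℓ h.hm3
  rw [h6] at h4 h5
  linarith [h.hl4, h.hm3]

theorem invol_cc {a : H} (ha : a ∈ invols H) : cc a = 2 * ℓ ∧ ∀ b ∈ invols H, IsConj a b := by
  have hsub : (univ.filter fun z => IsConj a z) ⊆ invols H := fun z hz => by
    obtain ⟨g, rfl⟩ := isConj_iff.1 (Finset.mem_filter.1 hz).2
    exact invols_conj ha g
  have hle := Finset.card_le_card hsub
  rw [card_class, h.card_invols] at hle
  have h21 : 21 ≤ q * m := Nat.mul_le_mul h.q_seven h.hm3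
  have hA : cc a = 2 * ℓ := by
    rcases (mem_elts2.1 (h.invols_subset ha)).2 with e | e
    · exfalso
      rw [h.index_l e, mul_assoc] at hle
      omega
    · exact e
  refine ⟨hA, fun b hb => ?_⟩
  have heq := Finset.eq_of_subset_of_card_le hsub (by
    rw [card_class, h.card_invols]; exact (h.index_2l hA).ge)
  rw [← heq] at hb
  exact (Finset.mem_filter.1 hb).2

theorem half {y : H} (hy : y ∈ elts2 H ℓ) (hyJ : y ∉ invols H) {a : H} (ha : a ∈ pairsAt (invols H) y) :
    cc y = ℓ := by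
  obtain ⟨ha1, haa, hay⟩ := inverts_of_mem_pairsAt ha
  obtain ⟨hy1, hcy⟩ := mem_elts2.1 hy
  refine hcy.resolve_right fun e => ?_
  set C := Subgroup.centralizer ({y} : Set H) with hCd
  have haN : a ∈ Subgroup.normalizer (C : Set H) := by
    rw [Subgroup.mem_normalizer_iff]
    intro c
    refine ⟨fun hcC => conj_mem_centralizer_of_inverts hay hcC, fun hcC => ?_⟩
    have h' := conj_mem_centralizer_of_inverts hay hcC
    rw [inv_eq_of_mul_eq_one_right haa] at h'
    have e2 : a * (a * c * a) * a = c := by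
      calc a * (a * c * a) * a = (a * a) * c * (a * a) := by group
        _ = c := by rw [haa, one_mul, mul_one]
    rwa [e2] at h'
  have haC : a ∉ C := fun h => hyJ (mem_invols.2 ⟨hy1, by
    rw [Subgroup.mem_centralizer_singleton_iff, ← mul_inv_eq_iff_eq_mul] at h
    rw [← mul_inv_cancel y, ← hay, h]⟩)
  set D := C ⊔ Subgroup.zpowers a with hDd
  have hle : D ≤ Subgroup.normalizer (C : Set H) :=
    sup_le Subgroup.le_normalizer (Subgroup.zpowers_le.2 haN)
  have h2 : 2 ∣ C.relIndex (Subgroup.normalizer (C : Set H)) := by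
    haveI : (C.subgroupOf (Subgroup.normalizer (C : Set H))).Normal := Subgroup.normal_in_normalizer
    rw [Subgroup.relIndex, Subgroup.index_eq_card]
    have hn : ((⟨a, haN⟩ : Subgroup.normalizer (C : Set H)) :
        Subgroup.normalizer (C : Set H) ⧸ C.subgroupOf (Subgroup.normalizer (C : Set H))) ≠ 1 := by
      rw [Ne, QuotientGroup.eq_one_iff]
      exact haC
    have ho : orderOf ((⟨a, haN⟩ : Subgroup.normalizer (C : Set H)) :
        Subgroup.normalizer (C : Set H) ⧸ C.subgroupOf (Subgroup.normalizer (C : Set H))) = 2 := by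
      refine orderOf_eq_prime ?_ hn
      rw [← QuotientGroup.mk_pow, show (⟨a, haN⟩ : Subgroup.normalizer (C : Set H)) ^ 2 = 1 from
        Subtype.ext (by rw [Subgroup.coe_pow, Subgroup.coe_one, pow_two]; exact haa)]
      rfl
    rw [← ho]
    exact orderOf_dvd_natCard _
  have h4 : 4 * ℓ ∣ Nat.card H := by
    refine dvd_trans ?_ (Subgroup.normalizer (C : Set H)).card_subgroup_dvd_card
    rw [← (Subgroup.subgroupOf C (Subgroup.normalizer (C : Set H))).card_mul_index,
      Nat.card_congr (Subgroup.subgroupOfEquivOfLe Subgroup.le_normalizer).toEquiv,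
      show Nat.card C = 2 * ℓ from e, show 4 * ℓ = 2 * ℓ * 2 by ring]
    exact Nat.mul_dvd_mul_left _ h2
  rw [h.hH, show 4 * ℓ = (2 * ℓ) * 2 by ring, show 2 * (q * ℓ * m) = (2 * ℓ) * (q * m) by ring] at h4
  rcases Nat.prime_two.dvd_mul.1 ((Nat.mul_dvd_mul_iff_left (by have := h.hl4; omega)).1 h4) with h' | h'
  · exact h.q_odd h'
  · obtain ⟨c, hc⟩ := h.hl; have := h.hlm; omega

/-- An inverted element with centraliser of order `q` gives an abelian self centralising subgroup. -/
theorem selfCent_of_inverted {x a : H} (hx : x ∈ withCC H q) (ha : a ∈ pairsAt (invols H) x) :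
    ∃ Q : Subgroup H, Nat.card Q = q ∧ ∀ c ∈ Q, c ≠ 1 → Subgroup.centralizer ({c} : Set H) = Q := by
  obtain ⟨hx1, hxq⟩ := mem_withCC.1 hx
  obtain ⟨ha1, haa, hax⟩ := inverts_of_mem_pairsAt ha
  change Nat.card (Subgroup.centralizer ({x} : Set H)) = q at hxq
  have hsub : ∀ c ∈ Subgroup.centralizer ({x} : Set H), c ≠ 1 → cc c = q := by
    intro c hcC hc1
    have h' : c ∈ withCC H q := by
      rw [← h.withCC_eq_pow (Or.inl rfl)]
      refine Finset.mem_filter.2 ⟨Finset.mem_univ _, hc1, ?_⟩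
      have := pow_card_eq_one' (G := Subgroup.centralizer ({x} : Set H)) (x := ⟨c, hcC⟩)
      rw [hxq] at this
      exact congrArg Subtype.val this
    exact (mem_withCC.1 h').2
  have hfree : ∀ c ∈ Subgroup.centralizer ({x} : Set H), a * c * a⁻¹ = c → c = 1 := by
    intro c hcC hac
    by_contra hc1
    have haC : a ∈ Subgroup.centralizer ({c} : Set H) :=
      Subgroup.mem_centralizer_singleton_iff.2 (mul_inv_eq_iff_eq_mul.1 hac)
    have h2 := Subgroup.orderOf_dvd_natCard _ haC
    rw [orderOf_eq_prime (p := 2) (by rw [pow_two]; exact haa) ha1,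
      show Nat.card _ = q from hsub c hcC hc1] at h2
    exact h.q_odd h2
  have hinv := inverts_of_fixedPointFree haa
    (fun c hcC => conj_mem_centralizer_of_inverts hax hcC) hfree
  refine ⟨Subgroup.centralizer ({x} : Set H), hxq, fun c hcC hc1 => ?_⟩
  have hcomm := comm_of_inverts hinv
  refine (Subgroup.eq_of_le_of_card_ge (fun d hd => ?_) ((hsub c hcC hc1).trans hxq.symm).le).symm
  exact Subgroup.mem_centralizer_singleton_iff.2 (hcomm d hd c hcC)

/-- The number of involutions commuting with `y`. -/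
def kcount (y : H) : ℕ := #((invols H).filter fun a => a * y = y * a)

theorem card_pairsAt_invol {a : H} (ha : a ∈ invols H) : #(pairsAt (invols H) a) + 1 = kcount a := by
  obtain ⟨ha1, haa⟩ := mem_invols.1 ha
  have e : pairsAt (invols H) a = ((invols H).filter fun b => b * a = a * b).erase a := by
    ext b
    simp only [pairsAt, Finset.mem_filter, Finset.mem_erase]
    constructor
    · rintro ⟨hb, hba⟩
      obtain ⟨-, hbb⟩ := mem_invols.1 hb
      obtain ⟨hba1, hbaba⟩ := mem_invols.1 hba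
      refine ⟨fun e => hba1 (e ▸ haa), hb, ?_⟩
      calc b * a = (b * a)⁻¹ := (inv_eq_of_mul_eq_one_right hbaba).symm
        _ = a * b := by
          rw [mul_inv_rev, inv_eq_of_mul_eq_one_right haa, inv_eq_of_mul_eq_one_right hbb]
    · rintro ⟨hne, hb, hcm⟩
      obtain ⟨-, hbb⟩ := mem_invols.1 hb
      refine ⟨hb, mem_invols.2 ⟨fun e => hne ?_, ?_⟩⟩
      · rw [eq_inv_of_mul_eq_one_left e, inv_eq_of_mul_eq_one_right haa]
      · calc b * a * (b * a) = b * a * (a * b) := by rw [hcm]
          _ = b * (a * a) * b := by group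
          _ = 1 := by rw [haa, mul_one, hbb]
  rw [e, Finset.card_erase_add_one]
  · rfl
  · exact Finset.mem_filter.2 ⟨ha, rfl⟩

theorem card_commute_invol {a : H} (ha : a ∈ invols H) :
    #((elts2 H ℓ \ invols H).filter fun y => a * y = y * a) + kcount a + 1 = 2 * ℓ := by
  have e : (univ.filter fun y : H => a * y = y * a) = insert 1
      (((elts2 H ℓ \ invols H).filter fun y => a * y = y * a) ∪
        ((invols H).filter fun b => b * a = a * b)) := by
    ext y
    simp only [Finset.mem_filter, Finset.mem_univ, true_and, Finset.mem_insert, Finset.mem_union]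
    constructor
    · intro hy
      by_cases h1 : y = 1
      · exact Or.inl h1
      refine Or.inr ?_
      by_cases hyJ : y ∈ invols H
      · exact Or.inr ⟨hyJ, hy.symm⟩
      refine Or.inl ⟨Finset.mem_sdiff.2 ⟨h.mem_elts2_of_even h1 ?_, hyJ⟩, hy⟩
      rw [← orderOf_invol ha]
      exact Subgroup.orderOf_dvd_natCard _ (Subgroup.mem_centralizer_singleton_iff.2 hy)
    · rintro (rfl | ⟨-, e⟩ | ⟨-, e⟩)
      · simp
      · exact e
      · exact e.symm
  have hcard' : #(univ.filter fun y : H => a * y = y * a) = 2 * ℓ := by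
    rw [← (h.invol_cc ha).1]
    show _ = Nat.card (Subgroup.centralizer ({a} : Set H))
    rw [← Fintype.card_subtype, ← Nat.card_eq_fintype_card]
    exact Nat.card_congr (Equiv.subtypeEquivRight fun y => by
      rw [Subgroup.mem_centralizer_singleton_iff]; exact eq_comm)
  rw [e, Finset.card_insert_of_notMem, Finset.card_union_of_disjoint] at hcard'
  · exact hcard'
  · rw [Finset.disjoint_left]
    intro y hy hy'
    exact (Finset.mem_sdiff.1 (Finset.mem_filter.1 hy).1).2 (Finset.mem_filter.1 hy').1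
  · intro e'
    rcases Finset.mem_union.1 e' with e' | e'
    · exact (mem_elts2.1 (Finset.mem_sdiff.1 (Finset.mem_filter.1 e').1).1).1 rfl
    · exact (mem_invols.1 (Finset.mem_filter.1 e').1).1 rfl

theorem exists_extremal (hU : ∀ y ∈ withCC H q, pairsAt (invols H) y = ∅) :
    ∃ y ∈ elts2 H ℓ \ invols H, kcount y = 1 ∧ #(pairsAt (invols H) y) = ℓ := by
  set Y := elts2 H ℓ \ invols H with hYd
  have hJc := h.card_invols
  have hR := h.card_elts2
  have hYc : #Y + q * m = #(elts2 H ℓ) := by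
    rw [← hJc]; exact Finset.card_sdiff_add_card_eq_card h.invols_subset
  have hY' : #Y + 2 * (q * m) = q * m * ℓ := by rw [← hR, ← hYc]; ring
  have hdouble : ∑ a ∈ invols H, #(Y.filter fun y => a * y = y * a) = ∑ y ∈ Y, kcount y := by
    simp only [kcount, Finset.card_filter]
    exact Finset.sum_comm
  have hsum1 : ∑ y ∈ Y, kcount y + ∑ a ∈ invols H, #(pairsAt (invols H) a) + 2 * (q * m) =
      q * m * (2 * ℓ) := by
    have e : ∑ a ∈ invols H, (#(Y.filter fun y => a * y = y * a) + (#(pairsAt (invols H) a) + 2)) =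
        #(invols H) * (2 * ℓ) := by
      rw [← smul_eq_mul, ← Finset.sum_const]
      refine Finset.sum_congr rfl fun a ha => ?_
      have := h.card_pairsAt_invol ha; have := h.card_commute_invol ha
      rw [← hYd] at this
      omega
    rw [Finset.sum_add_distrib, Finset.sum_add_distrib, Finset.sum_const, smul_eq_mul, hdouble, hJc] at e
    rw [← e]; ring
  have hk1 : ∀ y ∈ Y, 1 ≤ kcount y := fun y hy => by
    haveI : Fact (Nat.Prime 2) := ⟨Nat.prime_two⟩
    obtain ⟨⟨a, haC⟩, ha⟩ := exists_prime_orderOf_dvd_card' (G := Subgroup.centralizer ({y} : Set H)) 2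
      (h.two_dvd_cc (Finset.mem_sdiff.1 hy).1)
    rw [Subgroup.orderOf_mk] at ha
    exact Finset.card_pos.2 ⟨a, Finset.mem_filter.2
      ⟨mem_invols_of_orderOf ha, Subgroup.mem_centralizer_singleton_iff.1 haC⟩⟩
  have hPY : ∀ y ∈ Y, #(pairsAt (invols H) y) ≤ ℓ := fun y hy => by
    rcases (pairsAt (invols H) y).eq_empty_or_nonempty with e | ⟨a, ha⟩
    · rw [e]; simp
    · exact (h.half (Finset.mem_sdiff.1 hy).1 (Finset.mem_sdiff.1 hy).2 ha) ▸ card_pairsAt_le y
  have hsumY : ∑ y ∈ Y, #(pairsAt (invols H) y) ≤ #Y * ℓ := by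
    rw [← smul_eq_mul]; exact Finset.sum_le_card_nsmul _ _ _ hPY
  have hksum : #Y ≤ ∑ y ∈ Y, kcount y := by
    rw [Finset.card_eq_sum_ones]; exact Finset.sum_le_sum hk1
  have hPS := h.sum_le_withCC m
  have hP1 : #(pairsAt (invols H) 1) ≤ q * m := hJc ▸ Finset.card_filter_le _ _
  have hsum := (h.sum_partition fun y => #(pairsAt (invols H) y)).symm.trans (sum_pairsAt (invols H))
  rw [Finset.sum_eq_zero (fun y hy => Finset.card_eq_zero.2 (hU y hy)),
    ← Finset.sum_sdiff h.invols_subset, ← hYd, hJc] at hsum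
  have hS' : #(withCC H m) * m + q * ℓ * m = q * ℓ * m * m := by rw [← add_mul, h.card_withCC_m]
  have hYl : #Y * ℓ + 2 * (q * m) * ℓ = q * m * ℓ * ℓ := by rw [← add_mul, hY']
  have hlm1 : ℓ = m + 1 := by
    refine h.hlm.resolve_right fun e => ?_
    have h3 : (q * m) * (q * m + 2 * ℓ) ≤ (q * m) * (1 + ℓ * m + ℓ * ℓ) := by nlinarith
    have h4 := Nat.le_of_mul_le_mul_left h3 (Nat.mul_pos (by have := h.q_seven; omega) (by omega))
    rw [h.hq, e] at h4
    linarith [h.hl4]
  have hid : q * m * (q * m) + q * ℓ * m + 2 * (q * m) * ℓ =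
      q * m + q * m * ℓ + q * ℓ * m * m + q * m * ℓ * ℓ := by
    rw [h.hq, hlm1]; ring
  have hW1 : ∑ y ∈ Y, kcount y = #Y := by nlinarith
  have hW2 : ∑ y ∈ Y, #(pairsAt (invols H) y) = #Y * ℓ := by nlinarith
  obtain ⟨y, hy⟩ : Y.Nonempty := Finset.card_pos.1 (by
    have : q * m * 3 ≤ q * m * ℓ := Nat.mul_le_mul_left _ (by have := h.hl4; omega)
    have : 21 ≤ q * m := Nat.mul_le_mul h.q_seven h.hm3
    omega)
  refine ⟨y, hy, ?_, ?_⟩
  · have := (Finset.sum_eq_sum_iff_of_le (f := fun _ => 1) (g := kcount) hk1).1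
      (by rw [← Finset.card_eq_sum_ones]; exact hW1.symm) y hy
    exact this.symm
  · exact (Finset.sum_eq_sum_iff_of_le (f := fun y => #(pairsAt (invols H) y)) (g := fun _ => ℓ) hPY).1
      (by rw [Finset.sum_const, smul_eq_mul]; exact hW2) y hy

/-- The Brauer–Suzuki–Wall conclusion when no `q`-element is inverted. -/
theorem selfCent_of_extremal {y : H} (hy : y ∈ elts2 H ℓ \ invols H) (hk : kcount y = 1)
    (hP : #(pairsAt (invols H) y) = ℓ) :
    ∃ Q : Subgroup H, Nat.card Q = q ∧ ∀ c ∈ Q, c ≠ 1 → Subgroup.centralizer ({c} : Set H) = Q := by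
  obtain ⟨t, htk⟩ := Finset.card_eq_one.1 hk
  have htmem : t ∈ invols H ∧ t * y = y * t := Finset.mem_filter.1 (htk ▸ Finset.mem_singleton_self t)
  obtain ⟨htJ, hty⟩ := htmem
  obtain ⟨a, ha⟩ : (pairsAt (invols H) y).Nonempty :=
    Finset.card_pos.1 (by rw [hP]; have := h.hl4; omega)
  have haJ : a ∈ invols H := (Finset.mem_filter.1 ha).1
  obtain ⟨ha1, haa, hay⟩ := inverts_of_mem_pairsAt ha
  obtain ⟨hyR, hyJ⟩ := Finset.mem_sdiff.1 hy
  set K := Subgroup.centralizer ({y} : Set H) with hKd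
  have hKc : Nat.card K = ℓ := h.half hyR hyJ ha
  have hinvK : ∀ c ∈ K, a * c * a⁻¹ = c⁻¹ := by
    intro c hcK
    let φ : pairsAt (invols H) y → K := fun b => ⟨a * b.1, by
      obtain ⟨-, -, hby⟩ := inverts_of_mem_pairsAt b.2
      rw [Subgroup.mem_centralizer_singleton_iff, ← mul_inv_eq_iff_eq_mul]
      calc a * b.1 * y * (a * b.1)⁻¹ = a * (b.1 * y * b.1⁻¹) * a⁻¹ := by group
        _ = (a * y * a⁻¹)⁻¹ := by rw [hby]; group
        _ = y := by rw [hay, inv_inv]⟩
    have hφ : Function.Bijective φ := (Nat.bijective_iff_injective_and_card φ).2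
      ⟨fun b b' h => Subtype.ext (mul_left_cancel (congrArg Subtype.val h)),
        by rw [hKc, Nat.card_eq_fintype_card, Fintype.card_coe, hP]⟩
    obtain ⟨b, hb⟩ := hφ.2 ⟨c, hcK⟩
    have hb' : a * b.1 = c := congrArg Subtype.val hb
    obtain ⟨-, hbb, -⟩ := inverts_of_mem_pairsAt b.2
    rw [← hb', mul_inv_rev, inv_eq_of_mul_eq_one_right haa, inv_eq_of_mul_eq_one_right hbb]
    calc a * (a * b.1) * a = (a * a) * (b.1 * a) := by group
      _ = b.1 * a := by rw [haa, one_mul]
  have htK : t ∈ K := Subgroup.mem_centralizer_singleton_iff.2 hty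
  have hKab := comm_of_inverts hinvK
  obtain ⟨ht1, htt⟩ := mem_invols.1 htJ
  have hto : orderOf t = 2 := orderOf_eq_prime (by rw [pow_two]; exact htt) ht1
  have hao : orderOf a = 2 := orderOf_eq_prime (by rw [pow_two]; exact haa) ha1
  have hKH : K ≤ Subgroup.centralizer ({t} : Set H) := fun c hcK =>
    Subgroup.mem_centralizer_singleton_iff.2 (hKab c hcK t htK)
  have hat : a ∈ Subgroup.centralizer ({t} : Set H) := by
    rw [Subgroup.mem_centralizer_singleton_iff, ← mul_inv_eq_iff_eq_mul, hinvK t htK,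
      inv_eq_of_mul_eq_one_right htt]
  have haK : a ∉ K := fun h => hyJ (mem_invols.2 ⟨(mem_elts2.1 hyR).1, by
    rw [Subgroup.mem_centralizer_singleton_iff, ← mul_inv_eq_iff_eq_mul] at h
    rw [← mul_inv_cancel y, ← hay, h]⟩)
  have huniq : ∀ c ∈ K, c ≠ 1 → c * c = 1 → c = t := fun c hcK hc1 hcc => by
    have : c ∈ (invols H).filter (fun b => b * y = y * b) :=
      Finset.mem_filter.2 ⟨mem_invols.2 ⟨hc1, hcc⟩, Subgroup.mem_centralizer_singleton_iff.1 hcK⟩
    rw [htk] at this
    exact Finset.mem_singleton.1 this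
  let St : CfsgLib.SectRank.BSW.Setting H :=
    { t := t
      ht := hto
      K := K
      hKab := ⟨⟨fun c d => Subtype.ext (hKab c c.2 d d.2)⟩⟩
      hKH := hKH
      htK := htK
      s := a
      hs := hao
      hsH := hat
      hsK := haK
      hH := by
        refine Subgroup.eq_of_le_of_card_ge (sup_le hKH (Subgroup.zpowers_le.2 hat)) ?_
        rw [show Nat.card (Subgroup.centralizer ({t} : Set H)) = 2 * ℓ from (h.invol_cc htJ).1]
        obtain ⟨d, hd⟩ := Subgroup.card_dvd_of_le (le_sup_left : K ≤ K ⊔ Subgroup.zpowers a)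
        rw [hKc] at hd
        rcases d with _ | _ | d
        · exfalso; rw [mul_zero] at hd; exact Nat.card_pos.ne' hd
        · exfalso
          have := Subgroup.eq_of_le_of_card_ge (le_sup_left : K ≤ K ⊔ Subgroup.zpowers a)
            (by rw [hd, hKc, zero_add, mul_one])
          exact haK (this.symm ▸ Subgroup.mem_sup_right (Subgroup.mem_zpowers a))
        · rw [hd]; nlinarith
      hCK := by
        refine le_antisymm (fun c hcm => ?_) (Subgroup.zpowers_le.2 ⟨htK, ?_⟩)
        · obtain ⟨hcK, hca⟩ := hcm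
          by_cases hc1 : c = 1
          · rw [hc1]; exact one_mem _
          have h := hinvK c hcK
          rw [← (Subgroup.mem_centralizer_singleton_iff.1 hca), mul_inv_cancel_right] at h
          rw [huniq c hcK hc1 (mul_eq_one_iff_eq_inv.2 h)]
          exact Subgroup.mem_zpowers t
        · exact Subgroup.mem_centralizer_singleton_iff.2 (Subgroup.mem_centralizer_singleton_iff.1 hat).symm
      hinv := hinvK
      hTI := by
        have hcentK : ∀ c ∈ K, c ≠ 1 → c ≠ t → Subgroup.centralizer ({c} : Set H) = K := by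
          intro c hcK hc1 hct
          have hcY : c ∈ elts2 H ℓ \ invols H := by
            refine Finset.mem_sdiff.2 ⟨h.mem_elts2_of_even hc1 ?_, fun h => hct (huniq c hcK hc1 (mem_invols.1 h).2)⟩
            rw [← hto]
            exact Subgroup.orderOf_dvd_natCard _ (Subgroup.mem_centralizer_singleton_iff.2 (hKab t htK c hcK))
          have hne : (pairsAt (invols H) c).Nonempty := by
            have h2 : a * c * (a * c) = 1 := by
              calc a * c * (a * c) = (a * c * a⁻¹) * (a * a) * c := by group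
                _ = 1 := by rw [hinvK c hcK, haa]; group
            refine ⟨a, Finset.mem_filter.2 ⟨haJ, mem_invols.2 ⟨fun h => haK ?_, h2⟩⟩⟩
            rw [eq_inv_of_mul_eq_one_left h]
            exact K.inv_mem hcK
          exact (Subgroup.eq_of_le_of_card_ge
            (fun d hd => Subgroup.mem_centralizer_singleton_iff.2 (hKab d hd c hcK))
            (((h.half (Finset.mem_sdiff.1 hcY).1 (Finset.mem_sdiff.1 hcY).2 hne.choose_spec).trans hKc.symm).le)).symm
        intro g hg
        rw [eq_bot_iff]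
        rintro x ⟨hxK, x', hx', hxx'⟩
        rw [Subgroup.mem_bot]
        by_contra hx1
        have hxe : g * x' * g⁻¹ = x := hxx'
        have hx'1 : x' ≠ 1 := fun h => hx1 (by rw [← hxe, h]; group)
        refine hg (Subgroup.mem_centralizer_singleton_iff.2 (mul_inv_eq_iff_eq_mul.1 ?_))
        by_cases hxt : x = t
        · have : x' = t := huniq x' hx' hx'1 (by
            have e : x' = g⁻¹ * x * g := by rw [← hxe]; group
            rw [e, hxt]
            calc g⁻¹ * t * g * (g⁻¹ * t * g) = g⁻¹ * (t * t) * g := by group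
              _ = 1 := by rw [htt]; group)
          rw [← this, hxe, hxt, this]
        have hx't : x' ≠ t := fun h => hxt (huniq x hxK hx1 (by
          rw [← hxe, h]
          calc g * t * g⁻¹ * (g * t * g⁻¹) = g * (t * t) * g⁻¹ := by group
            _ = 1 := by rw [htt]; group))
        refine huniq _ ?_ (conj_ne_one g ht1) (by
          calc g * t * g⁻¹ * (g * t * g⁻¹) = g * (t * t) * g⁻¹ := by group
            _ = 1 := by rw [htt]; group)
        rw [← hcentK x hxK hx1 hxt, Subgroup.mem_centralizer_singleton_iff, ← hxe]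
        calc g * t * g⁻¹ * (g * x' * g⁻¹) = g * (t * x') * g⁻¹ := by group
          _ = g * (x' * t) * g⁻¹ := by rw [hKab t htK x' hx']
          _ = g * x' * g⁻¹ * (g * t * g⁻¹) := by group
      hconj := fun u v hu hv => (h.invol_cc (mem_invols_of_orderOf hu)).2 v (mem_invols_of_orderOf hv) }
  obtain ⟨Q, D, hQG, hQC, -⟩ := St.conclusion
  refine ⟨Q, ?_, hQC⟩
  rw [h.hH] at hQG
  have hid : 2 * (2 * (q * ℓ * m)) = q * (q + 1) * (q - 1) := by
    have : q * (q + 1) * (q - 1) = q * (q * q - 1) := by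
      rw [mul_assoc, ← Nat.sq_sub_sq, one_pow, pow_two]
    rw [this, h.q_sq, Nat.add_sub_cancel]; ring
  rw [hid] at hQG
  have hq7 := h.q_seven
  rcases lt_trichotomy (Nat.card Q) q with hlt | hlt | hlt
  · exfalso
    have : Nat.card Q * (Nat.card Q + 1) * (Nat.card Q - 1) < q * (q + 1) * (q - 1) :=
      Nat.mul_lt_mul_of_lt_of_le (Nat.mul_lt_mul_of_lt_of_le hlt (by omega) (by omega)) (by omega) (by omega)
    omega
  · exact hlt
  · exfalso
    have : q * (q + 1) * (q - 1) < Nat.card Q * (Nat.card Q + 1) * (Nat.card Q - 1) :=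
      Nat.mul_lt_mul_of_lt_of_le (Nat.mul_lt_mul_of_lt_of_le hlt (by omega) (by omega)) (by omega) (by omega)
    omega

omit [Fintype H] [DecidableEq H] in
/-- There is an abelian self centralising subgroup of order `q`. -/
theorem exists_selfCent [Finite H] :
    ∃ Q : Subgroup H, Nat.card Q = q ∧ ∀ c ∈ Q, c ≠ 1 → Subgroup.centralizer ({c} : Set H) = Q := by
  classical
  haveI := Fintype.ofFinite H
  by_cases hA : ∃ x ∈ withCC H q, (pairsAt (invols H) x).Nonempty
  · obtain ⟨x, hx, a, ha⟩ := hA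
    exact h.selfCent_of_inverted hx ha
  push Not at hA
  obtain ⟨y, hy, hk, hP⟩ := h.exists_extremal hA
  exact h.selfCent_of_extremal hy hk hP

end OddParams

/-- A group of order `q(q² - 1)/2` all whose centralisers of non-identity elements have order
`q`, `m`, `ℓ` or `2ℓ`, where `q = ℓ + m`, has one class of involutions and is `PSL₂(q)`. -/
theorem odd_case {H : Type*} [Group H] [Finite H] {p f q ℓ m : ℕ} (hp : p.Prime) (hqf : q = p ^ f)
    (h : OddParams H q ℓ m) :
    (∀ a b : H, orderOf a = 2 → orderOf b = 2 → IsConj a b) ∧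
      (∀ a : H, orderOf a = 2 → Nat.card (Subgroup.centralizer ({a} : Set H)) = 2 * ℓ) ∧
      ∃ (K : Type) (_ : Field K) (_ : Fintype K), Fintype.card K = q ∧
        Nonempty (H ≃* Matrix.ProjectiveSpecialLinearGroup (Fin 2) K) := by
  classical
  haveI := Fintype.ofFinite H
  refine ⟨fun a b ha hb => (h.invol_cc (OddParams.mem_invols_of_orderOf ha)).2 b
    (OddParams.mem_invols_of_orderOf hb), fun a ha => (h.invol_cc (OddParams.mem_invols_of_orderOf ha)).1, ?_⟩
  obtain ⟨Q, hQc, hQC⟩ := h.exists_selfCent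
  have hq7 := h.q_seven
  have hqodd := h.q_odd
  have hU4 := h.card_withCC_q
  haveI : Nontrivial Q := Finite.one_lt_card_iff_nontrivial.1 (by omega)
  obtain ⟨⟨x, hxQ⟩, hx1⟩ := exists_ne (1 : Q)
  have hx1' : x ≠ 1 := fun h => hx1 (Subtype.ext h)
  set N := Subgroup.normalizer (Q : Set H) with hNd
  have hpu : ¬ p ∣ 2 * ℓ * m := by
    intro hdiv
    have h1 : Nat.Coprime q (2 * ℓ * m) := Nat.Coprime.mul_right h.cop_q2l h.cop_qm
    have hpq : p ∣ q := by
      rw [hqf]; refine dvd_pow_self p ?_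
      rintro rfl
      rw [pow_zero] at hqf; omega
    have := h1.gcd_eq_one ▸ Nat.dvd_gcd hpq hdiv
    exact hp.one_lt.ne' (Nat.dvd_one.1 this)
  let φ : (H ⧸ N) × {c : Q // c ≠ 1} → OddParams.withCC H q := fun z => ⟨z.1.out * (z.2.1 : H) * z.1.out⁻¹, OddParams.mem_withCC.2
    ⟨OddParams.conj_ne_one _ (fun h => z.2.2 (Subtype.ext h)), (OddParams.cc_conj _ _).trans
      ((congrArg (fun M : Subgroup H => Nat.card M)
        (hQC _ z.2.1.2 (fun h => z.2.2 (Subtype.ext h)))).trans hQc)⟩⟩
  have hφ : Function.Bijective φ := by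
    constructor
    · rintro ⟨a, c⟩ ⟨b, d⟩ h
      have h' : a.out * (c.1 : H) * a.out⁻¹ = b.out * (d.1 : H) * b.out⁻¹ := congrArg Subtype.val h
      have he : (b.out⁻¹ * a.out) * (c.1 : H) * (b.out⁻¹ * a.out)⁻¹ = (d.1 : H) := by
        calc (b.out⁻¹ * a.out) * (c.1 : H) * (b.out⁻¹ * a.out)⁻¹
            = b.out⁻¹ * (a.out * (c.1 : H) * a.out⁻¹) * b.out := by group
          _ = _ := by rw [h']; group
      have hab : b = a := by
        rw [← QuotientGroup.out_eq' a, ← QuotientGroup.out_eq' b]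
        refine QuotientGroup.eq.2 ?_
        show _ ∈ Subgroup.normalizer (Q : Set H)
        rw [Subgroup.mem_normalizer_iff]
        intro w
        have hc' := hQC _ c.1.2 (fun e => c.2 (Subtype.ext e))
        have hd' := hQC _ d.1.2 (fun e => d.2 (Subtype.ext e))
        conv_lhs => rw [← hc']
        conv_rhs => rw [← hd']
        rw [Subgroup.mem_centralizer_singleton_iff, Subgroup.mem_centralizer_singleton_iff, ← he]
        generalize b.out⁻¹ * a.out = g
        rw [show g * w * g⁻¹ * (g * (c.1 : H) * g⁻¹) = g * (w * c.1) * g⁻¹ by group,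
          show g * (c.1 : H) * g⁻¹ * (g * w * g⁻¹) = g * (c.1 * w) * g⁻¹ by group]
        exact ⟨fun e => by rw [e], fun e => mul_left_cancel (mul_right_cancel e)⟩
      subst hab
      refine Prod.ext rfl (Subtype.ext (Subtype.ext ?_))
      exact mul_left_cancel (mul_right_cancel h')
    · rintro ⟨u, hu⟩
      obtain ⟨hu1, huq⟩ := OddParams.mem_withCC.1 hu
      have hxc : Nat.card (Subgroup.centralizer ({x} : Set H)) = q := by rw [hQC x hxQ hx1']; exact hQc
      obtain ⟨g, hg⟩ := centralizer_conj_of_card_eq (u := 2 * ℓ * m) hp hqf (by rw [h.hH]; ring) hpu hxc huq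
      have huQ : g⁻¹ * u * g ∈ Q := by
        rw [← hQC x hxQ hx1']
        exact (hg u).1 (Subgroup.mem_centralizer_singleton_iff.2 rfl)
      obtain ⟨n, hn⟩ := QuotientGroup.mk_out_eq_mul N g
      have hc' : ((g : H ⧸ N).out)⁻¹ * u * (g : H ⧸ N).out ∈ Q := by
        rw [hn, show (g * (n : H))⁻¹ * u * (g * (n : H)) = (n : H)⁻¹ * (g⁻¹ * u * g) * (n : H) by group]
        exact (Subgroup.mem_normalizer_iff''.1 n.2 _).1 huQ
      refine ⟨(g, ⟨⟨_, hc'⟩, fun e => hu1 ?_⟩), Subtype.ext ?_⟩
      · have e' : ((g : H ⧸ N).out)⁻¹ * u * (g : H ⧸ N).out = 1 := congrArg Subtype.val e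
        simpa using conj_eq_one_iff.1 (show ((g : H ⧸ N).out)⁻¹ * u * ((g : H ⧸ N).out)⁻¹⁻¹ = 1 by
          rw [inv_inv]; exact e')
      · show (g : H ⧸ N).out * (((g : H ⧸ N).out)⁻¹ * u * (g : H ⧸ N).out) * ((g : H ⧸ N).out)⁻¹ = u
        group
  have hidx : N.index = q + 1 := by
    have h1 := Nat.card_congr (Equiv.ofBijective φ hφ)
    rw [Nat.card_prod, ← Subgroup.index_eq_card] at h1
    haveI := Fintype.ofFinite Q
    rw [Nat.card_eq_fintype_card (α := OddParams.withCC H q), Fintype.card_coe, hU4,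
      Nat.card_eq_fintype_card (α := {c : Q // c ≠ 1}), Fintype.card_subtype_compl,
      Fintype.card_subtype_eq, ← Nat.card_eq_fintype_card, hQc] at h1
    refine Nat.eq_of_mul_eq_mul_right (show 0 < q - 1 by omega) (h1.trans ?_)
    rw [← Nat.sq_sub_sq, one_pow, pow_two, h.q_sq, Nat.add_sub_cancel]
  obtain ⟨d, hd⟩ : ∃ d, 2 * d + 1 = q := ⟨q / 2, by omega⟩
  have hcN : Nat.card N = q * d := by
    have h1 := N.card_mul_index
    rw [hidx, h.hH] at h1
    refine Nat.eq_of_mul_eq_mul_right (show 0 < q + 1 by omega) (h1.trans ?_)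
    apply Nat.eq_of_mul_eq_mul_left two_pos
    have h2 : (2 * d) * (q + 1) = 4 * (ℓ * m) := by nlinarith [h.q_sq]
    calc 2 * (2 * (q * ℓ * m)) = q * (4 * (ℓ * m)) := by ring
      _ = q * ((2 * d) * (q + 1)) := by rw [h2]
      _ = _ := by ring
  have hco : q.Coprime d := by
    rw [← hd, Nat.coprime_mul_right_add_left]
    exact Nat.coprime_one_left d
  have := h.hl4; have := h.hm3
  exact (recognition Q hQc hQC hidx hcN (by omega) hco (by omega) fun z hz => by
    rcases h.hc z hz with e | e | e | e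
    · rw [h.index_q e, h.hq]; nlinarith
    · rw [h.index_m e]; nlinarith
    · rw [h.index_l e]; nlinarith
    · rw [h.index_2l e]; nlinarith).1 hd

end CfsgLib.ClassSizesPSL
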