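import Cfsg.Agent.Lib.ClassSizesPSL.Lift
import Cfsg.Agent.Lib.ClassSizesPSL.OddCase

/-!
A group with the class sizes of `PSL₂(q)` has `G / Z(G)` with the centraliser orders of `PSL₂(q)`.
-/

set_option autoImplicit false
set_option linter.unusedSectionVars false
set_option linter.style.haveILetI false

namespace CfsgLib.ClassSizesPSL

variable {G : Type*} [Group G] [Finite G]

theorem eq_one_of_dvd_of_coprime {a b : ℕ} (h : a.Coprime b) (hd : a ∣ b) : a = 1 := by
  rw [← h.gcd_eq_one]; exact (Nat.gcd_eq_left hd).symm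

theorem pow_eq_one_of_dvd {p j : ℕ} {b : ℕ} (hp : p.Prime) (hb : ¬ p ∣ b) (hd : p ^ j ∣ b) : p ^ j = 1 :=
  eq_one_of_dvd_of_coprime (((hp.coprime_iff_not_dvd).2 hb).pow_left j) hd

/-- Class sizes of `PSL₂(q)`, `q` odd. -/
theorem odd_quotient {p f q ℓ m : ℕ} (hp : p.Prime) (hqf : q = p ^ f) (hq : q = ℓ + m)
    (hlm : ℓ = m + 1 ∨ m = ℓ + 1) (hl : Even ℓ) (hl4 : 4 ≤ ℓ) (hm3 : 3 ≤ m)
    (hM : Set.range (fun x : G => csize x) = {1, 2 * ℓ * m, 2 * q * ℓ, 2 * q * m, q * m}) :
    OddParams (G ⧸ Subgroup.center G) q ℓ m ∧ (Subgroup.center G).index = 2 * (q * ℓ * m) := by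
  obtain ⟨c, hc⟩ := hl
  have hqodd : ¬ 2 ∣ q := by omega
  have h2m : ¬ 2 ∣ m := by omega
  have hq7 : 7 ≤ q := by omega
  have hlmc : Nat.Coprime ℓ m := by rcases hlm with e | e <;> rw [e] <;> simp
  have hqm : Nat.Coprime q m := by rw [hq, Nat.coprime_add_self_left]; exact hlmc
  have hql : Nat.Coprime q ℓ := by rw [hq, Nat.coprime_self_add_left]; exact hlmc.symm
  have hq2 : Nat.Coprime q 2 := ((Nat.prime_two.coprime_iff_not_dvd).2 hqodd).symm
  have hm2 : Nat.Coprime m 2 := ((Nat.prime_two.coprime_iff_not_dvd).2 h2m).symm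
  have hq2lm : Nat.Coprime q (2 * ℓ * m) := Nat.Coprime.mul_right (Nat.Coprime.mul_right hq2 hql) hqm
  have hcases : ∀ y : G, y ∉ Subgroup.center G → csize y = 2 * ℓ * m ∨ csize y = 2 * q * ℓ ∨
      csize y = 2 * q * m ∨ csize y = q * m := fun y hy => by
    have h : csize y ∈ Set.range (fun x : G => csize x) := ⟨y, rfl⟩
    rw [hM] at h
    rcases h with h | h | h | h | h
    · exact absurd (mem_center_of_csize_eq_one h) hy
    · exact Or.inl h
    · exact Or.inr (Or.inl h)
    · exact Or.inr (Or.inr (Or.inl h))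
    · exact Or.inr (Or.inr (Or.inr h))
  have hrep : ∀ v : ℕ, v ≠ 1 → v ∈ ({1, 2 * ℓ * m, 2 * q * ℓ, 2 * q * m, q * m} : Set ℕ) →
      ∃ x : G, x ∉ Subgroup.center G ∧ csize x = v := fun v hv1 hv => by
    rw [← hM] at hv
    obtain ⟨x, hx⟩ := hv
    exact ⟨x, fun h => hv1 (hx.symm.trans (csize_eq_one_of_mem_center h)), hx⟩
  have hqm21 : 21 ≤ q * m := Nat.mul_le_mul hq7 hm3
  obtain ⟨xU, hxU, hiU⟩ := hrep (2 * ℓ * m) (by nlinarith) (by simp)
  obtain ⟨xS, hxS, hiS⟩ := hrep (2 * q * ℓ) (by nlinarith) (by simp)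
  obtain ⟨xI, hxI, hiI⟩ := hrep (q * m) (by omega) (by simp)
  -- the order of `G/Z`
  set d := (Subgroup.center G).index with hd
  obtain ⟨k, hk⟩ : 2 * (q * ℓ * m) ∣ d := by
    have h1 : 2 * ℓ * m ∣ d := hiU ▸ Dvd.intro_left _ (cq_mul_csize xU)
    have h2 : q ∣ d := (show q ∣ 2 * q * ℓ from ⟨2 * ℓ, by ring⟩).trans (hiS ▸ Dvd.intro_left _ (cq_mul_csize xS))
    rw [show 2 * (q * ℓ * m) = q * (2 * ℓ * m) by ring]
    exact hq2lm.mul_dvd_of_dvd_of_dvd h2 h1
  have hcqU : cq xU = k * q := Nat.eq_of_mul_eq_mul_right (show 0 < 2 * ℓ * m by positivity)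
    (by conv_lhs => rw [← hiU, cq_mul_csize, ← hd, hk]
        ring)
  have hcqS : cq xS = k * m := Nat.eq_of_mul_eq_mul_right (show 0 < 2 * q * ℓ by positivity)
    (by conv_lhs => rw [← hiS, cq_mul_csize, ← hd, hk]
        ring)
  have hk1 : k = 1 := by
    by_contra hne
    obtain ⟨r, hr, hrk⟩ := Nat.exists_prime_and_dvd hne
    have hpq : p ∣ q := by
      rw [hqf]; refine dvd_pow_self p ?_
      rintro rfl
      rw [pow_zero] at hqf; omega
    by_cases hrp : r = p
    · subst hrp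
      obtain ⟨s, hs, hsm⟩ := Nat.exists_prime_and_dvd (show m ≠ 1 by omega)
      have hsr : s ≠ r := fun e => hs.one_lt.ne'
        (eq_one_of_dvd_of_coprime (Nat.Coprime.coprime_dvd_left (e ▸ hpq) hqm) hsm)
      refine not_dvd_cq_of_ne hr (centralizer_eq_of_minmax hxS ?_ ?_ ?_) hxU ?_ ?_
        (hcqS ▸ dvd_mul_of_dvd_left hrk m)
      · intro y hy hdvd
        rcases hcases y hy with e | e | e | e <;> rw [hiS, e] at hdvd
        · exfalso
          have := eq_one_of_dvd_of_coprime hq2lm ((show q ∣ 2 * q * ℓ from ⟨2 * ℓ, by ring⟩).trans hdvd)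
          omega
        · rw [e, hiS]
        · exfalso
          have := eq_one_of_dvd_of_coprime hlmc
            ((Nat.mul_dvd_mul_iff_left (show 0 < 2 * q by omega)).1 hdvd)
          omega
        · exfalso
          rw [show 2 * q * ℓ = q * (2 * ℓ) by ring] at hdvd
          have := eq_one_of_dvd_of_coprime hlmc
            ((dvd_mul_left ℓ 2).trans ((Nat.mul_dvd_mul_iff_left (show 0 < q by omega)).1 hdvd))
          omega
      · intro y hy hdvd
        rcases hcases y hy with e | e | e | e <;> rw [hiS, e] at hdvd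
        · exfalso
          have := eq_one_of_dvd_of_coprime (Nat.Coprime.mul_right (Nat.Coprime.mul_right hm2 hqm.symm) hlmc.symm)
            ((dvd_mul_left m (2 * ℓ)).trans hdvd)
          omega
        · rw [e, hiS]
        all_goals
          exfalso
          have := eq_one_of_dvd_of_coprime (Nat.Coprime.mul_right (Nat.Coprime.mul_right hm2 hqm.symm) hlmc.symm)
            ((dvd_mul_left m _).trans hdvd)
          omega
      · intro p'
        by_cases h : s = p'
        · exact ⟨r, hr, h ▸ hsr.symm, hcqS ▸ dvd_mul_of_dvd_left hrk m⟩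
        · exact ⟨s, hs, h, hcqS ▸ dvd_mul_of_dvd_right hsm k⟩
      · rw [hiU, hiS]; intro e
        have := eq_one_of_dvd_of_coprime hq2lm ((show q ∣ 2 * q * ℓ from ⟨2 * ℓ, by ring⟩).trans (dvd_of_eq e.symm))
        omega
      · rw [hiU]; intro e
        exact hr.one_lt.ne' (eq_one_of_dvd_of_coprime (Nat.Coprime.coprime_dvd_left hpq hq2lm) e)
    · have hrq : ¬ r ∣ q := by
        rw [hqf]
        exact fun h => hrp ((Nat.prime_dvd_prime_iff_eq hr hp).1 (hr.dvd_of_dvd_pow h))
      have hnd : ∀ v, q ∣ v → ¬ v ∣ 2 * ℓ * m := fun v hv h => by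
        have := eq_one_of_dvd_of_coprime hq2lm (hv.trans h); omega
      have hmain : ∀ x' : G, x' ∉ Subgroup.center G → csize x' ≠ csize xU → r ∣ csize x' := by
        intro x' hx' hne'
        by_contra hrv
        refine not_dvd_cq_of_ne hr (centralizer_eq_of_minmax hxU ?_ ?_ ?_) hx' hne' hrv
          (hcqU ▸ dvd_mul_of_dvd_left hrk q)
        · intro y hy hdvd
          rcases hcases y hy with e | e | e | e <;> rw [hiU, e] at hdvd
          · rw [e, hiU]
          · exfalso
            have := eq_one_of_dvd_of_coprime (Nat.Coprime.mul_right (Nat.Coprime.mul_right hm2 hqm.symm) hlmc.symm)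
              ((dvd_mul_left m (2 * ℓ)).trans hdvd)
            omega
          all_goals
            exfalso
            have h1 : ℓ ∣ 2 * q * m := ((show ℓ ∣ 2 * ℓ * m from ⟨2 * m, by ring⟩).trans hdvd).trans (by
              first | exact dvd_refl _ | exact ⟨2, by ring⟩)
            have := Nat.le_of_dvd two_pos (hql.symm.dvd_of_dvd_mul_right (hlmc.dvd_of_dvd_mul_right h1))
            omega
        · intro y hy hdvd
          rcases hcases y hy with e | e | e | e <;> rw [hiU, e] at hdvd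
          · rw [e, hiU]
          all_goals exact absurd hdvd (hnd _ (by
            first | exact dvd_mul_of_dvd_left (dvd_mul_left q 2) _ | exact dvd_mul_right q m))
        · intro p'
          by_cases h : r = p'
          · exact ⟨p, hp, h ▸ Ne.symm hrp, hcqU ▸ dvd_mul_of_dvd_right hpq k⟩
          · exact ⟨r, hr, h, hcqU ▸ dvd_mul_of_dvd_left hrk q⟩
      by_cases hrm : r ∣ m
      · have h := hmain xS hxS (by rw [hiS, hiU]; exact fun e => hnd _ ⟨2 * ℓ, by ring⟩ (dvd_of_eq e))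
        rw [hiS] at h
        exact hr.one_lt.ne' (eq_one_of_dvd_of_coprime (Nat.Coprime.coprime_dvd_left hrm
          (Nat.Coprime.mul_right (Nat.Coprime.mul_right hm2 hqm.symm) hlmc.symm)) h)
      · have h := hmain xI hxI (by rw [hiI, hiU]; exact fun e => hnd _ ⟨m, by ring⟩ (dvd_of_eq e))
        rw [hiI] at h
        rcases hr.dvd_mul.1 h with h | h
        · exact hrq h
        · exact hrm h
  rw [hk1, mul_one] at hk
  refine ⟨⟨hq, hlm, ⟨c, hc⟩, hl4, hm3, by rw [← Subgroup.index_eq_card, ← hd, hk], ?_⟩, hk⟩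
  have hcq : ∀ y : G, y ∉ Subgroup.center G →
      (csize y = 2 * ℓ * m ∧ cq y = q) ∨ (csize y = 2 * q * ℓ ∧ cq y = m) ∨
      (csize y = 2 * q * m ∧ cq y = ℓ) ∨ (csize y = q * m ∧ cq y = 2 * ℓ) := by
    intro y hy
    have h := cq_mul_csize y
    rw [← hd, hk] at h
    rcases hcases y hy with e | e | e | e <;> rw [e] at h
    · exact Or.inl ⟨e, Nat.eq_of_mul_eq_mul_right (show 0 < 2 * ℓ * m by positivity) (h.trans (by ring))⟩
    · exact Or.inr (Or.inl ⟨e, Nat.eq_of_mul_eq_mul_right (show 0 < 2 * q * ℓ by positivity) (h.trans (by ring))⟩)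
    · exact Or.inr (Or.inr (Or.inl ⟨e, Nat.eq_of_mul_eq_mul_right (show 0 < 2 * q * m by positivity) (h.trans (by ring))⟩))
    · exact Or.inr (Or.inr (Or.inr ⟨e, Nat.eq_of_mul_eq_mul_right (show 0 < q * m by positivity) (h.trans (by ring))⟩))
  intro h hh1
  obtain ⟨x, rfl⟩ := QuotientGroup.mk_surjective h
  have hx : x ∉ Subgroup.center G := fun e => hh1 ((QuotientGroup.eq_one_iff x).2 e)
  obtain ⟨y, hyx, r, i, hr, hro, hy⟩ := exists_primary hx
  obtain ⟨j, hj, hjd⟩ := card_centralizer_primary hr hro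
  have hrd := prime_dvd_cq hr hro hy
  have hlow := cq_dvd_card_centralizer x
  have hup : Nat.card (Subgroup.centralizer ({(x : G ⧸ Subgroup.center G)} : Set (G ⧸ Subgroup.center G))) ∣
      Nat.card (Subgroup.centralizer ({(y : G ⧸ Subgroup.center G)} : Set (G ⧸ Subgroup.center G))) := by
    refine Subgroup.card_dvd_of_le (centralizer_le_pow _ ?_)
    obtain ⟨n, rfl⟩ := Subgroup.mem_zpowers_iff.1 hyx
    exact ⟨n, (QuotientGroup.mk_zpow _ x n).symm⟩
  rw [hj] at hup
  have hx' : cq x = q ∨ cq x = m ∨ cq x = ℓ ∨ cq x = 2 * ℓ := by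
    rcases hcq x hx with ⟨-, e⟩ | ⟨-, e⟩ | ⟨-, e⟩ | ⟨-, e⟩ <;> simp [e]
  have hqml : ∀ n : ℕ, n ∣ q → (cq x ∣ n) → cq x = q := fun n hn hd' => by
    have h1 := hd'.trans hn
    rcases hx' with e | e | e | e <;> rw [e] at h1
    · exact e
    · have := eq_one_of_dvd_of_coprime hqm.symm h1; omega
    · have := eq_one_of_dvd_of_coprime hql.symm h1; omega
    · have := eq_one_of_dvd_of_coprime hql.symm ((dvd_mul_left ℓ 2).trans h1); omega
  rcases hcq y hy with ⟨hi, e⟩ | ⟨hi, e⟩ | ⟨hi, e⟩ | ⟨hi, e⟩ <;> rw [e] at hup hrd <;> rw [hi] at hjd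
  · rw [pow_eq_one_of_dvd hr (fun h' => hr.one_lt.ne'
      (eq_one_of_dvd_of_coprime (Nat.Coprime.coprime_dvd_left hrd hq2lm) h')) hjd, mul_one] at hup
    exact Or.inl (Nat.dvd_antisymm hup ((hqml q dvd_rfl (hlow.trans hup)) ▸ hlow))
  · rw [pow_eq_one_of_dvd hr (fun h' => hr.one_lt.ne' (eq_one_of_dvd_of_coprime
      (Nat.Coprime.coprime_dvd_left hrd (Nat.Coprime.mul_right (Nat.Coprime.mul_right hm2 hqm.symm) hlmc.symm)) h'))
      hjd, mul_one] at hup
    have h1 := hlow.trans hup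
    rcases hx' with e | e | e | e <;> rw [e] at h1 hlow
    · have := eq_one_of_dvd_of_coprime hqm h1; omega
    · exact Or.inr (Or.inl (Nat.dvd_antisymm hup hlow))
    · have := eq_one_of_dvd_of_coprime hlmc h1; omega
    · have := eq_one_of_dvd_of_coprime hlmc ((dvd_mul_left ℓ 2).trans h1); omega
  all_goals
    have hrl : ¬ r ∣ q * m := fun h' => by
      have h2l : r ∣ 2 * ℓ := by
        first | exact hrd | exact dvd_mul_of_dvd_right hrd 2
      have hco : Nat.Coprime (2 * ℓ) (q * m) :=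
        Nat.Coprime.mul_left (Nat.Coprime.mul_right hq2.symm hm2.symm) (Nat.Coprime.mul_right hql.symm hlmc)
      exact hr.one_lt.ne' (eq_one_of_dvd_of_coprime (Nat.Coprime.coprime_dvd_left h2l hco) h')
    have hup' : Nat.card (Subgroup.centralizer ({(x : G ⧸ Subgroup.center G)} : Set (G ⧸ Subgroup.center G))) ∣
        2 * ℓ := by
      first
        | (rw [pow_eq_one_of_dvd hr hrl hjd, mul_one] at hup; exact hup)
        | (refine hup.trans ?_
           rw [mul_comm]
           refine Nat.mul_dvd_mul_right ?_ ℓ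
           rw [mul_assoc] at hjd
           exact (((hr.coprime_iff_not_dvd).2 hrl).pow_left j).dvd_of_dvd_mul_right hjd)
    have h1 := hlow.trans hup'
    have hfin : cq x = ℓ ∨ cq x = 2 * ℓ := by
      rcases hx' with e | e | e | e
      · rw [e] at h1
        have := eq_one_of_dvd_of_coprime (Nat.Coprime.mul_right hq2 hql) h1; omega
      · rw [e] at h1
        have := eq_one_of_dvd_of_coprime (Nat.Coprime.mul_right hm2 hlmc.symm) h1; omega
      · exact Or.inl e
      · exact Or.inr e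
    have hl : ℓ ∣ Nat.card (Subgroup.centralizer ({(x : G ⧸ Subgroup.center G)} : Set (G ⧸ Subgroup.center G))) := by
      rcases hfin with e | e <;> rw [e] at hlow
      · exact hlow
      · exact (dvd_mul_left ℓ 2).trans hlow
    obtain ⟨w, hw⟩ := hl
    rw [hw, mul_comm ℓ w] at hup'
    have := Nat.dvd_of_mul_dvd_mul_right (show 0 < ℓ by omega) hup'
    rcases (Nat.dvd_prime Nat.prime_two).1 this with rfl | rfl
    · exact Or.inr (Or.inr (Or.inl (hw.trans (mul_one ℓ))))
    · exact Or.inr (Or.inr (Or.inr (hw.trans (mul_comm ℓ 2))))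

/-- Class sizes of `PSL₂(q)`, `q` even. -/
theorem even_quotient {f q : ℕ} (hqf : q = 2 ^ f) (hq4 : 4 ≤ q)
    (hM : Set.range (fun x : G => csize x) = {1, (q - 1) * (q + 1), q * (q - 1), q * (q + 1)}) :
    (∀ h : G ⧸ Subgroup.center G, h ≠ 1 →
      Nat.card (Subgroup.centralizer ({h} : Set (G ⧸ Subgroup.center G))) = q ∨
      Nat.card (Subgroup.centralizer ({h} : Set (G ⧸ Subgroup.center G))) = q - 1 ∨
      Nat.card (Subgroup.centralizer ({h} : Set (G ⧸ Subgroup.center G))) = q + 1) ∧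
    (Subgroup.center G).index = q * (q - 1) * (q + 1) := by
  have h2q : 2 ∣ q := by
    rw [hqf]
    refine dvd_pow_self 2 ?_
    rintro rfl
    rw [pow_zero] at hqf; omega
  have hqm : Nat.Coprime q (q - 1) := by
    rw [hqf]; exact ((Nat.prime_two.coprime_iff_not_dvd).2 (by rw [← hqf]; omega)).pow_left f
  have hqp : Nat.Coprime q (q + 1) := Nat.coprime_self_add_right.2 (Nat.coprime_one_right q)
  have hpm : Nat.Coprime (q + 1) (q - 1) := by
    rw [show q + 1 = 2 + (q - 1) by omega, Nat.coprime_add_self_left]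
    exact (Nat.prime_two.coprime_iff_not_dvd).2 (by omega)
  have hqw : Nat.Coprime q ((q - 1) * (q + 1)) := Nat.Coprime.mul_right hqm hqp
  have hcases : ∀ y : G, y ∉ Subgroup.center G →
      csize y = (q - 1) * (q + 1) ∨ csize y = q * (q - 1) ∨ csize y = q * (q + 1) := fun y hy => by
    have h : csize y ∈ Set.range (fun x : G => csize x) := ⟨y, rfl⟩
    rw [hM] at h
    rcases h with h | h | h | h
    · exact absurd (mem_center_of_csize_eq_one h) hy
    · exact Or.inl h
    · exact Or.inr (Or.inl h)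
    · exact Or.inr (Or.inr h)
  have hrep : ∀ v : ℕ, v ≠ 1 → v ∈ ({1, (q - 1) * (q + 1), q * (q - 1), q * (q + 1)} : Set ℕ) →
      ∃ x : G, x ∉ Subgroup.center G ∧ csize x = v := fun v hv1 hv => by
    rw [← hM] at hv
    obtain ⟨x, hx⟩ := hv
    exact ⟨x, fun h => hv1 (hx.symm.trans (csize_eq_one_of_mem_center h)), hx⟩
  have h12 : 4 * 3 ≤ q * (q - 1) := Nat.mul_le_mul hq4 (by omega)
  have h20 : 4 * 5 ≤ q * (q + 1) := Nat.mul_le_mul hq4 (by omega)
  have h15 : 3 * 5 ≤ (q - 1) * (q + 1) := Nat.mul_le_mul (by omega) (by omega)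
  obtain ⟨xU, hxU, hiU⟩ := hrep ((q - 1) * (q + 1)) (by omega) (by simp)
  obtain ⟨xA, hxA, hiA⟩ := hrep (q * (q - 1)) (by omega) (by simp)
  obtain ⟨xB, hxB, hiB⟩ := hrep (q * (q + 1)) (by omega) (by simp)
  set d := (Subgroup.center G).index with hd
  obtain ⟨k, hk⟩ : q * (q - 1) * (q + 1) ∣ d := by
    rw [mul_assoc]
    exact hqw.mul_dvd_of_dvd_of_dvd ((dvd_mul_right q _).trans (hiA ▸ Dvd.intro_left _ (cq_mul_csize xA)))
      (hiU ▸ Dvd.intro_left _ (cq_mul_csize xU))
  have hcqU : cq xU = k * q := Nat.eq_of_mul_eq_mul_right (show 0 < (q - 1) * (q + 1) by omega)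
    (by conv_lhs => rw [← hiU, cq_mul_csize, ← hd, hk]
        ring)
  have hcqA : cq xA = k * (q + 1) := Nat.eq_of_mul_eq_mul_right (show 0 < q * (q - 1) by omega)
    (by conv_lhs => rw [← hiA, cq_mul_csize, ← hd, hk]
        ring)
  have hne : ∀ a b : ℕ, q ∣ a → b = (q - 1) * (q + 1) → ¬ a ∣ b := fun a b ha hb h => by
    subst hb
    have := eq_one_of_dvd_of_coprime hqw (ha.trans h); omega
  have hsep : ∀ a b : ℕ, a.Coprime b → 1 < a → ¬ q * a ∣ q * b := fun a b hab ha h => by
    have := eq_one_of_dvd_of_coprime hab ((Nat.mul_dvd_mul_iff_left (show 0 < q by omega)).1 h); omega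
  have hmm : ∀ x : G, x ∉ Subgroup.center G → ∀ y : G, y ∉ Subgroup.center G →
      csize x ∣ csize y → csize y = csize x := by
    intro x hx y hy hdvd
    rcases hcases x hx with e | e | e <;> rcases hcases y hy with e' | e' | e' <;> rw [e, e'] at hdvd <;>
      first
        | exact e'.trans e.symm
        | exact absurd hdvd (hne _ _ (dvd_mul_right q _) rfl)
        | exact absurd hdvd (hsep _ _ hpm.symm (by omega))
        | exact absurd hdvd (hsep _ _ hpm (by omega))
        | (exfalso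
           have h1 := (dvd_mul_left (q + 1) (q - 1)).trans hdvd
           have := eq_one_of_dvd_of_coprime (Nat.Coprime.mul_right hqp.symm hpm) h1
           omega)
        | (exfalso
           have h1 := (dvd_mul_right (q - 1) (q + 1)).trans hdvd
           have := eq_one_of_dvd_of_coprime (Nat.Coprime.mul_right hqm.symm hpm.symm) h1
           omega)
  have hk1 : k = 1 := by
    by_contra hne1
    obtain ⟨r, hr, hrk⟩ := Nat.exists_prime_and_dvd hne1
    have hex : ∀ a : ℕ, 1 < a → ∃ s, s.Prime ∧ s ∣ a := fun a ha => Nat.exists_prime_and_dvd (by omega)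
    by_cases hr2 : r = 2
    · subst hr2
      obtain ⟨s, hs, hsd⟩ := hex (q + 1) (by omega)
      have hs2 : s ≠ 2 := fun e => by subst e; omega
      refine not_dvd_cq_of_ne Nat.prime_two
        (centralizer_eq_of_minmax hxA (fun y hy h => hmm xA hxA y hy h) (fun y hy h => (hmm y hy xA hxA h).symm) ?_)
        hxU (by rw [hiU, hiA]; exact fun e => hne _ _ (dvd_mul_right q _) rfl (dvd_of_eq e.symm))
        (by rw [hiU]; intro h; rcases Nat.prime_two.dvd_mul.1 h with h | h <;> omega)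
        (hcqA ▸ dvd_mul_of_dvd_left hrk _)
      intro p'
      by_cases h : s = p'
      · exact ⟨2, Nat.prime_two, h ▸ hs2.symm, hcqA ▸ dvd_mul_of_dvd_left hrk _⟩
      · exact ⟨s, hs, h, hcqA ▸ dvd_mul_of_dvd_right hsd k⟩
    · have hrq : ¬ r ∣ q := by
        rw [hqf]
        exact fun h => hr2 ((Nat.prime_dvd_prime_iff_eq hr Nat.prime_two).1 (hr.dvd_of_dvd_pow h))
      have hmain : ∀ x' : G, x' ∉ Subgroup.center G → csize x' ≠ csize xU → r ∣ csize x' := by
        intro x' hx' hne'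
        by_contra hrv
        refine not_dvd_cq_of_ne hr
          (centralizer_eq_of_minmax hxU (fun y hy h => hmm xU hxU y hy h) (fun y hy h => (hmm y hy xU hxU h).symm) ?_)
          hx' hne' hrv (hcqU ▸ dvd_mul_of_dvd_left hrk q)
        intro p'
        by_cases h : r = p'
        · exact ⟨2, Nat.prime_two, h ▸ Ne.symm hr2, hcqU ▸ dvd_mul_of_dvd_right h2q k⟩
        · exact ⟨r, hr, h, hcqU ▸ dvd_mul_of_dvd_left hrk q⟩
      have h := hmain xA hxA (by rw [hiU, hiA]; exact fun e => hne _ _ (dvd_mul_right q _) rfl (dvd_of_eq e))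
      have h' := hmain xB hxB (by rw [hiU, hiB]; exact fun e => hne _ _ (dvd_mul_right q _) rfl (dvd_of_eq e))
      rw [hiA] at h
      rw [hiB] at h'
      have h1 := (hr.dvd_mul.1 h).resolve_left hrq
      have h2 := (hr.dvd_mul.1 h').resolve_left hrq
      exact hr.one_lt.ne' (eq_one_of_dvd_of_coprime (Nat.Coprime.coprime_dvd_left h2 hpm) h1)
  rw [hk1, mul_one] at hk
  refine ⟨fun h hh1 => ?_, hk⟩
  obtain ⟨x, rfl⟩ := QuotientGroup.mk_surjective h
  have hx : x ∉ Subgroup.center G := fun e => hh1 ((QuotientGroup.eq_one_iff x).2 e)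
  obtain ⟨y, hyx, r, i, hr, hro, hy⟩ := exists_primary hx
  obtain ⟨j, hj, hjd⟩ := card_centralizer_primary hr hro
  have hrd := prime_dvd_cq hr hro hy
  have hlow := cq_dvd_card_centralizer x
  have hup : Nat.card (Subgroup.centralizer ({(x : G ⧸ Subgroup.center G)} : Set (G ⧸ Subgroup.center G))) ∣
      Nat.card (Subgroup.centralizer ({(y : G ⧸ Subgroup.center G)} : Set (G ⧸ Subgroup.center G))) := by
    refine Subgroup.card_dvd_of_le (centralizer_le_pow _ ?_)
    obtain ⟨n, rfl⟩ := Subgroup.mem_zpowers_iff.1 hyx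
    exact ⟨n, (QuotientGroup.mk_zpow _ x n).symm⟩
  rw [hj] at hup
  have hcq : ∀ z : G, z ∉ Subgroup.center G →
      (csize z = (q - 1) * (q + 1) ∧ cq z = q) ∨ (csize z = q * (q - 1) ∧ cq z = q + 1) ∨
      (csize z = q * (q + 1) ∧ cq z = q - 1) := by
    intro z hz
    have h := cq_mul_csize z
    rw [← hd, hk] at h
    rcases hcases z hz with e | e | e <;> rw [e] at h
    · exact Or.inl ⟨e, Nat.eq_of_mul_eq_mul_right (show 0 < (q - 1) * (q + 1) by omega) (h.trans (by ring))⟩
    · exact Or.inr (Or.inl ⟨e, Nat.eq_of_mul_eq_mul_right (show 0 < q * (q - 1) by omega) (h.trans (by ring))⟩)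
    · exact Or.inr (Or.inr ⟨e, Nat.eq_of_mul_eq_mul_right (show 0 < q * (q + 1) by omega) (h.trans (by ring))⟩)
  have hco : Nat.Coprime (cq y) (csize y) := by
    rcases hcq y hy with ⟨e1, e2⟩ | ⟨e1, e2⟩ | ⟨e1, e2⟩ <;> rw [e1, e2]
    · exact hqw
    · exact Nat.Coprime.mul_right hqp.symm hpm
    · exact Nat.Coprime.mul_right hqm.symm hpm.symm
  rw [pow_eq_one_of_dvd hr (fun h' => hr.one_lt.ne'
    (eq_one_of_dvd_of_coprime (Nat.Coprime.coprime_dvd_left hrd hco) h')) hjd, mul_one] at hup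
  have h1 := hlow.trans hup
  rcases hcq x hx with ⟨-, e⟩ | ⟨-, e⟩ | ⟨-, e⟩ <;> rw [e] at hlow h1 <;>
    rcases hcq y hy with ⟨-, e'⟩ | ⟨-, e'⟩ | ⟨-, e'⟩ <;> rw [e'] at hup h1 <;>
    first
      | exact Or.inl (Nat.dvd_antisymm hup hlow)
      | exact Or.inr (Or.inl (Nat.dvd_antisymm hup hlow))
      | exact Or.inr (Or.inr (Nat.dvd_antisymm hup hlow))
      | (exfalso; have := eq_one_of_dvd_of_coprime (by first | exact hqp | exact hqm | exact hqp.symm | exact hqm.symm | exact hpm | exact hpm.symm) h1; omega)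

end CfsgLib.ClassSizesPSL
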