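import Cfsg.Agent.Lib.ClassSizesPSL.Counting
import Mathlib.GroupTheory.QuotientGroup.Basic

/-!
Centralisers in `G` and in `G / Z(G)` when the class sizes of `G` are incomparable.
-/

set_option autoImplicit false
set_option linter.unusedSectionVars false
set_option linter.style.haveILetI false

namespace CfsgLib.ClassSizesPSL

variable {G : Type*} [Group G]

/-- The class size. -/
noncomputable abbrev csize (x : G) : ℕ := (Subgroup.centralizer ({x} : Set G)).index

/-- The order of `C(x)/Z(G)`. -/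
noncomputable abbrev cq (x : G) : ℕ :=
  (Subgroup.center G).relIndex (Subgroup.centralizer ({x} : Set G))

theorem mem_centralizer_self (x : G) : x ∈ Subgroup.centralizer ({x} : Set G) :=
  Subgroup.mem_centralizer_singleton_iff.2 rfl

theorem centralizer_le_pow (x : G) {y : G} (hy : y ∈ Subgroup.zpowers x) :
    Subgroup.centralizer ({x} : Set G) ≤ Subgroup.centralizer ({y} : Set G) := by
  intro c hc
  obtain ⟨i, rfl⟩ := Subgroup.mem_zpowers_iff.1 hy
  exact Subgroup.mem_centralizer_singleton_iff.2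
    ((show Commute c x from Subgroup.mem_centralizer_singleton_iff.1 hc).zpow_right i).eq

theorem cq_mul_csize (x : G) : cq x * csize x = (Subgroup.center G).index :=
  Subgroup.relIndex_mul_index (Subgroup.center_le_centralizer _)

theorem mem_center_of_csize_eq_one {x : G} (h : csize x = 1) : x ∈ Subgroup.center G :=
  Subgroup.mem_center_iff.2 fun g =>
    Subgroup.mem_centralizer_singleton_iff.1 (Subgroup.index_eq_one.1 h ▸ Subgroup.mem_top g)

theorem csize_eq_one_of_mem_center {x : G} (h : x ∈ Subgroup.center G) : csize x = 1 := by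
  rw [csize, Subgroup.index_eq_one, eq_top_iff]
  exact fun g _ => Subgroup.mem_centralizer_singleton_iff.2 (Subgroup.mem_center_iff.1 h g)

/-- Two commuting elements of coprime order are powers of their product. -/
theorem mem_zpowers_mul_of_coprime [Finite G] {x y : G} (hc : Commute x y)
    (hco : (orderOf x).Coprime (orderOf y)) : x ∈ Subgroup.zpowers (x * y) := by
  obtain ⟨n, hn⟩ := exists_pow_eq_self_of_coprime (x := x) hco.symm
  have h : (x * y) ^ orderOf y = x ^ orderOf y := by rw [hc.mul_pow, pow_orderOf_eq_one, mul_one]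
  rw [← h] at hn
  have hm := pow_mem (pow_mem (Subgroup.mem_zpowers (x * y)) (orderOf y)) n
  rwa [hn] at hm

variable [Finite G]

/-- A subgroup containing all prime power order powers of `x` contains `x`. -/
theorem mem_of_primary (L : Subgroup G) :
    ∀ (x : G), (∀ y ∈ Subgroup.zpowers x, ∀ p k : ℕ, p.Prime → orderOf y = p ^ k → y ∈ L) → x ∈ L := by
  intro x
  induction hn : orderOf x using Nat.strong_induction_on generalizing x with
  | _ n ih =>
    intro hall
    subst hn
    by_cases hx : orderOf x = 1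
    · rw [orderOf_eq_one_iff] at hx
      rw [hx]; exact L.one_mem
    set p := (orderOf x).minFac
    have hp : p.Prime := Nat.minFac_prime hx
    have hd : p ∣ orderOf x := Nat.minFac_dvd _
    set a := ordProj[p] (orderOf x) with had
    set b := ordCompl[p] (orderOf x) with hbd
    have hab : a * b = orderOf x := Nat.ordProj_mul_ordCompl_eq_self _ _
    have hco : a.Coprime b := (Nat.coprime_ordCompl hp (orderOf_pos x).ne').pow_left _
    have hb0 : b ≠ 0 := fun e => (orderOf_pos x).ne' (by rw [← hab, e, mul_zero])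
    have ha0 : a ≠ 0 := fun e => (orderOf_pos x).ne' (by rw [← hab, e, zero_mul])
    have h1 : orderOf (x ^ b) = a := by
      rw [orderOf_pow_of_dvd hb0 ⟨a, by rw [mul_comm, hab]⟩, ← hab, Nat.mul_div_cancel _ (Nat.pos_of_ne_zero hb0)]
    have h2 : orderOf (x ^ a) = b := by
      rw [orderOf_pow_of_dvd ha0 ⟨b, hab.symm⟩, ← hab, Nat.mul_div_cancel_left _ (Nat.pos_of_ne_zero ha0)]
    have hlt : b < orderOf x := by
      have : 1 < a := by
        rw [had]
        exact Nat.one_lt_pow (hp.factorization_pos_of_dvd (orderOf_pos x).ne' hd).ne' hp.one_lt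
      rw [← hab]
      exact lt_mul_of_one_lt_left (Nat.pos_of_ne_zero hb0) this
    have hmem1 : x ^ b ∈ L := hall _ (pow_mem (Subgroup.mem_zpowers x) b) p _ hp (h1.trans had)
    have hmem2 : x ^ a ∈ L := ih b hlt _ h2 fun y hy q k hq hk =>
      hall y (Subgroup.zpowers_le.2 (pow_mem (Subgroup.mem_zpowers x) a) hy) q k hq hk
    have hbez := Nat.gcd_eq_gcd_ab a b
    rw [hco.gcd_eq_one, Nat.cast_one] at hbez
    rw [← zpow_one x, hbez, zpow_add, zpow_mul, zpow_mul, zpow_natCast, zpow_natCast]
    exact mul_mem (zpow_mem hmem2 _) (zpow_mem hmem1 _)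

/-- A noncentral element has a noncentral power of prime power order. -/
theorem exists_primary {x : G} (hx : x ∉ Subgroup.center G) :
    ∃ y ∈ Subgroup.zpowers x, ∃ p k : ℕ, p.Prime ∧ orderOf y = p ^ k ∧ y ∉ Subgroup.center G := by
  by_contra! h
  exact hx (mem_of_primary _ x fun y hy p k hp hk => h y hy p k hp hk)

/-- A prime dividing `|C/Z|` gives a noncentral element of `C` of that prime power order. -/
theorem exists_mem_of_dvd_relIndex {C : Subgroup G} {r : ℕ} (hr : r.Prime)
    (h : r ∣ (Subgroup.center G).relIndex C) :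
    ∃ y ∈ C, ∃ k : ℕ, orderOf y = r ^ k ∧ y ∉ Subgroup.center G := by
  haveI : Fact r.Prime := ⟨hr⟩
  haveI : ((Subgroup.center G).subgroupOf C).Normal := inferInstance
  rw [Subgroup.relIndex, Subgroup.index_eq_card] at h
  obtain ⟨u', hu'⟩ := exists_prime_orderOf_dvd_card' r h
  obtain ⟨u, rfl⟩ := QuotientGroup.mk_surjective u'
  set n := orderOf u
  refine ⟨((u ^ ordCompl[r] n : C) : G), (u ^ ordCompl[r] n).2, n.factorization r, ?_, fun hz => ?_⟩
  · rw [Subgroup.orderOf_coe, orderOf_pow_of_dvd (Nat.ordCompl_pos r (orderOf_pos u).ne').ne'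
      (Nat.ordCompl_dvd n r)]
    exact Nat.div_eq_of_eq_mul_left (Nat.ordCompl_pos r (orderOf_pos u).ne')
      (Nat.ordProj_mul_ordCompl_eq_self n r).symm
  · have h1 : ((u ^ ordCompl[r] n : C) : C ⧸ (Subgroup.center G).subgroupOf C) = 1 :=
      (QuotientGroup.eq_one_iff _).2 (Subgroup.mem_subgroupOf.2 hz)
    rw [QuotientGroup.mk_pow, ← orderOf_dvd_iff_pow_eq_one, hu'] at h1
    exact Nat.not_dvd_ordCompl hr (orderOf_pos u).ne' h1

/-- If the class size of `x` is minimal and maximal for divisibility and `C(x)/Z` is not a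
`p`-group then `C(x)` is abelian and is the centraliser of each of its noncentral elements. -/
theorem centralizer_eq_of_minmax {x : G} (hx : x ∉ Subgroup.center G)
    (hmin : ∀ y : G, y ∉ Subgroup.center G → csize x ∣ csize y → csize y = csize x)
    (hmax : ∀ y : G, y ∉ Subgroup.center G → csize y ∣ csize x → csize y = csize x)
    (hnp : ∀ p : ℕ, ∃ r : ℕ, r.Prime ∧ r ≠ p ∧ r ∣ cq x) :
    ∀ y ∈ Subgroup.centralizer ({x} : Set G), y ∉ Subgroup.center G →
      Subgroup.centralizer ({y} : Set G) = Subgroup.centralizer ({x} : Set G) := by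
  set C := Subgroup.centralizer ({x} : Set G) with hC
  have hup : ∀ y : G, y ∉ Subgroup.center G → C ≤ Subgroup.centralizer ({y} : Set G) →
      Subgroup.centralizer ({y} : Set G) = C := by
    intro y hy hle
    have h1 := hmax y hy (Subgroup.index_dvd_of_le hle)
    have h2 := Subgroup.relIndex_mul_index hle
    rw [show (Subgroup.centralizer ({y} : Set G)).index = C.index from h1] at h2
    exact le_antisymm (Subgroup.relIndex_eq_one.1 (Nat.eq_of_mul_eq_mul_right
      (Nat.pos_of_ne_zero Subgroup.index_ne_zero_of_finite) (h2.trans (one_mul _).symm))) hle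
  obtain ⟨x', hx'm, p, k, hp, hk, hx'⟩ := exists_primary hx
  have hCx' := hup x' hx' (centralizer_le_pow x hx'm)
  -- elements of coprime order centralising a good element are central in `C`
  have hgood : ∀ (a b : G) (pa pb ka kb : ℕ), pa.Prime → pb.Prime → pa ≠ pb → orderOf a = pa ^ ka →
      orderOf b = pb ^ kb → Subgroup.centralizer ({a} : Set G) = C → b ∈ C → a ∉ Subgroup.center G →
      C ≤ Subgroup.centralizer ({b} : Set G) := by
    intro a b pa pb ka kb hpa hpb hne hoa hob hCa hbC ha
    have hab : Commute a b := by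
      rw [← hCa] at hbC
      exact (Subgroup.mem_centralizer_singleton_iff.1 hbC).symm
    have hco : (orderOf a).Coprime (orderOf b) := by
      rw [hoa, hob]
      exact ((Nat.coprime_primes hpa hpb).2 hne).pow _ _
    have ham := mem_zpowers_mul_of_coprime hab hco
    have hbm := mem_zpowers_mul_of_coprime hab.symm hco.symm
    rw [← hab.eq] at hbm
    have hnc : a * b ∉ Subgroup.center G := fun h => ha (Subgroup.zpowers_le.2 h ham)
    have h1 : Subgroup.centralizer ({a * b} : Set G) ≤ C := hCa ▸ centralizer_le_pow _ ham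
    have h2 := hmin (a * b) hnc (Subgroup.index_dvd_of_le h1)
    have h3 := Subgroup.relIndex_mul_index h1
    rw [show (Subgroup.centralizer ({a * b} : Set G)).index = C.index from h2] at h3
    have h4 : C ≤ Subgroup.centralizer ({a * b} : Set G) := Subgroup.relIndex_eq_one.1
      (Nat.eq_of_mul_eq_mul_right (Nat.pos_of_ne_zero Subgroup.index_ne_zero_of_finite)
        (h3.trans (one_mul _).symm))
    exact h4.trans (centralizer_le_pow _ hbm)
  obtain ⟨r, hr, hrp, hrd⟩ := hnp p
  obtain ⟨y, hyC, j, hj, hy⟩ := exists_mem_of_dvd_relIndex hr hrd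
  have hCy := hup y hy (hgood x' y p r k j hp hr hrp.symm hk hj hCx' hyC hx')
  intro b hbC hb
  refine hup b hb fun c hc => ?_
  have : b ∈ Subgroup.centralizer ({c} : Set G) := by
    refine mem_of_primary _ b fun z hz s i hs hi => ?_
    have hzC : z ∈ C := Subgroup.zpowers_le.2 hbC hz
    refine Subgroup.mem_centralizer_singleton_iff.2 (Subgroup.mem_centralizer_singleton_iff.1 ?_).symm
    by_cases hsp : s = p
    · subst hsp
      exact hgood y z r s j i hr hs hrp hj hi hCy hzC hy hc
    · exact hgood x' z p s k i hp hs (Ne.symm hsp) hk hi hCx' hzC hx' hc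
  exact Subgroup.mem_centralizer_singleton_iff.2 (Subgroup.mem_centralizer_singleton_iff.1 this).symm

/-- No prime divides `|C(x)/Z|` if it avoids a second class size. -/
theorem not_dvd_cq_of_ne {x x' : G} {r : ℕ} (hr : r.Prime)
    (hcent : ∀ y ∈ Subgroup.centralizer ({x} : Set G), y ∉ Subgroup.center G →
      Subgroup.centralizer ({y} : Set G) = Subgroup.centralizer ({x} : Set G))
    (hx' : x' ∉ Subgroup.center G) (hne : csize x' ≠ csize x) (hrv : ¬ r ∣ csize x') :
    ¬ r ∣ cq x := by
  intro hrd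
  obtain ⟨y, hyC, j, hj, hy⟩ := exists_mem_of_dvd_relIndex hr hrd
  haveI : Fact r.Prime := ⟨hr⟩
  set C' := Subgroup.centralizer ({x'} : Set G) with hC'
  obtain ⟨R, hyR⟩ := (IsPGroup.of_card (G := Subgroup.zpowers y)
    (by rw [Nat.card_zpowers, hj])).exists_le_sylow
  obtain ⟨R'⟩ : Nonempty (Sylow r C') := inferInstance
  have hcard : Nat.card R' = Nat.card R := by
    rw [R'.card_eq_multiplicity, R.card_eq_multiplicity, ← C'.card_mul_index,
      Nat.factorization_mul Nat.card_pos.ne' Subgroup.index_ne_zero_of_finite, Finsupp.add_apply,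
      Nat.factorization_eq_zero_of_not_dvd hrv, add_zero]
  obtain ⟨S, hS⟩ := (R'.isPGroup'.map C'.subtype).exists_le_sylow
  have hSeq : (R' : Subgroup C').map C'.subtype = S := Subgroup.eq_of_le_of_card_ge hS (by
    rw [Subgroup.card_map_of_injective C'.subtype_injective, hcard, R.card_eq_multiplicity,
      S.card_eq_multiplicity])
  obtain ⟨g, rfl⟩ := MulAction.exists_smul_eq G S R
  have hy' := hyR (Subgroup.mem_zpowers y)
  rw [Sylow.coe_subgroup_smul, Subgroup.mem_pointwise_smul_iff_inv_smul_mem, ← map_inv, MulAut.smul_def,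
    MulAut.conj_apply, inv_inv, ← hSeq] at hy'
  obtain ⟨⟨z, hz⟩, -, hzy⟩ := hy'
  have hzy' : z = g⁻¹ * y * g := hzy
  set x'' := g * x' * g⁻¹
  have hx''C : x'' ∈ Subgroup.centralizer ({y} : Set G) := by
    have hzx := Subgroup.mem_centralizer_singleton_iff.1 hz
    rw [hzy'] at hzx
    refine Subgroup.mem_centralizer_singleton_iff.2 ?_
    calc g * x' * g⁻¹ * y = g * (x' * (g⁻¹ * y * g)) * g⁻¹ := by group
      _ = g * (g⁻¹ * y * g * x') * g⁻¹ := by rw [hzx]
      _ = y * (g * x' * g⁻¹) := by group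
  rw [hcent y hyC hy] at hx''C
  have hx'' : x'' ∉ Subgroup.center G := fun h => hx' (by
    have := (inferInstance : (Subgroup.center G).Normal).conj_mem _ h g⁻¹
    simpa [x'', mul_assoc] using this)
  refine hne ?_
  rw [csize, csize, ← hcent x'' hx''C hx'']
  obtain ⟨e⟩ := ElementOrders.card_centralizer_conj g x'
  have h1 := (Subgroup.centralizer ({x''} : Set G)).card_mul_index
  have h2 := (Subgroup.centralizer ({x'} : Set G)).card_mul_index
  rw [← Nat.card_congr e.toEquiv] at h1
  exact Nat.eq_of_mul_eq_mul_left Nat.card_pos (h2.trans h1.symm)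

/-- `C(x)/Z` embeds in the centraliser of the image of `x`. -/
theorem cq_dvd_card_centralizer (x : G) :
    cq x ∣ Nat.card (Subgroup.centralizer ({(x : G ⧸ Subgroup.center G)} : Set (G ⧸ Subgroup.center G))) := by
  have h := Subgroup.relIndex_ker (K := Subgroup.centralizer ({x} : Set G))
    (QuotientGroup.mk' (Subgroup.center G))
  rw [QuotientGroup.ker_mk'] at h
  rw [cq, h]
  refine Subgroup.card_dvd_of_le ?_
  rintro _ ⟨g, hg, rfl⟩
  refine Subgroup.mem_centralizer_singleton_iff.2 ?_
  show ((g * x : G) : G ⧸ Subgroup.center G) = ((x * g : G) : G ⧸ Subgroup.center G)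
  rw [Subgroup.mem_centralizer_singleton_iff.1 hg]

/-- The centraliser of the image is larger by a power of the prime, dividing the class size. -/
theorem card_centralizer_primary {x : G} {p k : ℕ} (hp : p.Prime) (hk : orderOf x = p ^ k) :
    ∃ j : ℕ, Nat.card (Subgroup.centralizer ({(x : G ⧸ Subgroup.center G)} : Set (G ⧸ Subgroup.center G))) =
      cq x * p ^ j ∧ p ^ j ∣ csize x := by
  haveI : Fact p.Prime := ⟨hp⟩
  set Z := Subgroup.center G
  set P := (Subgroup.centralizer ({(x : G ⧸ Z)} : Set (G ⧸ Z))).comap (QuotientGroup.mk' Z) with hP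
  have hmem : ∀ g : G, g ∈ P ↔ g * x * g⁻¹ * x⁻¹ ∈ Z := fun g => by
    rw [hP, Subgroup.mem_comap, Subgroup.mem_centralizer_singleton_iff, ← QuotientGroup.eq_one_iff]
    show ((g * x : G) : G ⧸ Z) = ((x * g : G) : G ⧸ Z) ↔ _
    rw [QuotientGroup.mk_mul, QuotientGroup.mk_mul, QuotientGroup.mk_mul, QuotientGroup.mk_mul,
      QuotientGroup.mk_mul, QuotientGroup.mk_inv, QuotientGroup.mk_inv, mul_inv_eq_one,
      mul_inv_eq_iff_eq_mul]
  have hCP : Subgroup.centralizer ({x} : Set G) ≤ P := fun g hg => (hmem g).2 (by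
    rw [Subgroup.mem_centralizer_singleton_iff.1 hg]; simp)
  let φ : P →* Z :=
    { toFun := fun g => ⟨(g : G) * x * (g : G)⁻¹ * x⁻¹, (hmem g).1 g.2⟩
      map_one' := Subtype.ext (by simp)
      map_mul' := fun a b => Subtype.ext (by
        have hb := Subgroup.mem_center_iff.1 ((hmem b).1 b.2)
        show ((a : G) * b) * x * ((a : G) * b)⁻¹ * x⁻¹ = (a * x * (a : G)⁻¹ * x⁻¹) * (b * x * (b : G)⁻¹ * x⁻¹)
        calc ((a : G) * b) * x * ((a : G) * b)⁻¹ * x⁻¹
            = ((a : G) * ((b : G) * x * (b : G)⁻¹ * x⁻¹)) * x * (a : G)⁻¹ * x⁻¹ := by group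
          _ = (((b : G) * x * (b : G)⁻¹ * x⁻¹) * (a : G)) * x * (a : G)⁻¹ * x⁻¹ := by rw [hb]
          _ = ((b : G) * x * (b : G)⁻¹ * x⁻¹) * ((a : G) * x * (a : G)⁻¹ * x⁻¹) := by group
          _ = _ := (hb _).symm) }
  have hker : φ.ker = (Subgroup.centralizer ({x} : Set G)).subgroupOf P := by
    ext g
    rw [MonoidHom.mem_ker, Subgroup.mem_subgroupOf, Subgroup.mem_centralizer_singleton_iff, Subtype.ext_iff]
    show (g : G) * x * (g : G)⁻¹ * x⁻¹ = 1 ↔ _
    rw [mul_inv_eq_one, mul_inv_eq_iff_eq_mul]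
  have hpg : IsPGroup p φ.range := by
    rintro ⟨z, g, rfl⟩
    refine ⟨k, Subtype.ext (Subtype.ext ?_)⟩
    show ((g : G) * x * (g : G)⁻¹ * x⁻¹) ^ p ^ k = 1
    have hz := Subgroup.mem_center_iff.1 ((hmem g).1 g.2)
    have e : (g : G) * x * (g : G)⁻¹ = (g : G) * x * (g : G)⁻¹ * x⁻¹ * x := by group
    have hc : Commute ((g : G) * x * (g : G)⁻¹ * x⁻¹) x := (hz x).symm
    have h1 : ((g : G) * x * (g : G)⁻¹) ^ p ^ k = 1 := by
      rw [conj_pow, ← hk, pow_orderOf_eq_one]; group
    rw [e, hc.mul_pow, ← hk, pow_orderOf_eq_one, mul_one, hk] at h1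
    exact h1
  obtain ⟨j, hj⟩ := IsPGroup.iff_card.1 hpg
  have hrel : (Subgroup.centralizer ({x} : Set G)).relIndex P = p ^ j := by
    rw [Subgroup.relIndex, ← hker, Subgroup.index_ker, hj]
  refine ⟨j, ?_, hrel ▸ Dvd.intro _ (Subgroup.relIndex_mul_index hCP)⟩
  have h3 := Subgroup.relIndex_mul_relIndex Z _ P (Subgroup.center_le_centralizer _) hCP
  rw [hrel] at h3
  rw [cq, h3]
  have h4 := Subgroup.relIndex_ker (K := P) (QuotientGroup.mk' Z)
  rw [QuotientGroup.ker_mk', hP, Subgroup.map_comap_eq_self_of_surjective (QuotientGroup.mk'_surjective Z)] at h4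
  exact h4.symm

/-- If the two centralisers have equal order then `C(x)` is the full preimage. -/
theorem mem_centralizer_of_card_eq {x g : G}
    (h : Nat.card (Subgroup.centralizer ({(x : G ⧸ Subgroup.center G)} : Set (G ⧸ Subgroup.center G))) = cq x)
    (hg : Commute (g : G ⧸ Subgroup.center G) (x : G ⧸ Subgroup.center G)) : Commute g x := by
  set Z := Subgroup.center G
  have h' := Subgroup.relIndex_ker (K := Subgroup.centralizer ({x} : Set G)) (QuotientGroup.mk' Z)
  rw [QuotientGroup.ker_mk'] at h'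
  have hle : (Subgroup.centralizer ({x} : Set G)).map (QuotientGroup.mk' Z) ≤
      Subgroup.centralizer ({(x : G ⧸ Z)} : Set (G ⧸ Z)) := by
    rintro _ ⟨a, ha, rfl⟩
    refine Subgroup.mem_centralizer_singleton_iff.2 ?_
    show ((a * x : G) : G ⧸ Z) = ((x * a : G) : G ⧸ Z)
    rw [Subgroup.mem_centralizer_singleton_iff.1 ha]
  have heq := Subgroup.eq_of_le_of_card_ge hle (le_of_eq (h.trans h'))
  have hgm : (g : G ⧸ Z) ∈ (Subgroup.centralizer ({x} : Set G)).map (QuotientGroup.mk' Z) :=
    heq ▸ Subgroup.mem_centralizer_singleton_iff.2 hg.eq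
  obtain ⟨a, ha, hae⟩ := hgm
  have hz : a⁻¹ * g ∈ Z := QuotientGroup.eq.1 hae
  have hmem : a * (a⁻¹ * g) ∈ Subgroup.centralizer ({x} : Set G) :=
    mul_mem ha (Subgroup.center_le_centralizer _ hz)
  rw [mul_inv_cancel_left] at hmem
  exact Subgroup.mem_centralizer_singleton_iff.1 hmem

/-- The prime of a noncentral element of prime power order divides `|C(x)/Z|`. -/
theorem prime_dvd_cq {x : G} {p k : ℕ} (hp : p.Prime) (hk : orderOf x = p ^ k) (hx : x ∉ Subgroup.center G) :
    p ∣ cq x := by
  set Z := Subgroup.center G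
  have hd : orderOf (x : G ⧸ Z) ∣ p ^ k := hk ▸ orderOf_map_dvd (QuotientGroup.mk' Z) x
  obtain ⟨i, -, hi⟩ := (Nat.dvd_prime_pow hp).1 hd
  have h' := Subgroup.relIndex_ker (K := Subgroup.centralizer ({x} : Set G)) (QuotientGroup.mk' Z)
  rw [QuotientGroup.ker_mk'] at h'
  have hmem : (x : G ⧸ Z) ∈ (Subgroup.centralizer ({x} : Set G)).map (QuotientGroup.mk' Z) :=
    ⟨x, mem_centralizer_self x, rfl⟩
  rw [cq, h']
  refine dvd_trans ?_ (Subgroup.orderOf_dvd_natCard _ hmem)
  rw [hi]
  refine dvd_pow_self p fun h0 => hx ?_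
  rw [h0, pow_zero, orderOf_eq_one_iff, QuotientGroup.eq_one_iff] at hi
  exact hi

end CfsgLib.ClassSizesPSL
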