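import Cfsg.Agent.Lib.ClassSizesPSL.Lift
import Cfsg.Agent.Lib.PGroups.SylowBasics
import Mathlib.GroupTheory.Transfer

/-!
`Z(G) ∩ G' = 1` from Sylow subgroups abelian, or dihedral modulo the centre with lifts of
involutions having full centralisers.
-/

set_option autoImplicit false
set_option linter.unusedSectionVars false
set_option linter.style.haveILetI false

namespace CfsgLib.ClassSizesPSL

variable {G : Type*} [Group G] [Finite G]

theorem center_inf_commutator_eq_bot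
    (h : ∀ r : ℕ, [Fact r.Prime] → ∀ R : Sylow r G, (R : Subgroup G) ⊓ Subgroup.center G ⊓ commutator G = ⊥) :
    Subgroup.center G ⊓ commutator G = ⊥ := by
  rw [eq_bot_iff]
  intro z hz
  refine mem_of_primary ⊥ z fun y hy r k hr hk => ?_
  haveI : Fact r.Prime := ⟨hr⟩
  obtain ⟨R, hR⟩ := (IsPGroup.of_card (G := Subgroup.zpowers y)
    (by rw [Nat.card_zpowers, hk])).exists_le_sylow
  have hle : Subgroup.zpowers z ≤ Subgroup.center G ⊓ commutator G := Subgroup.zpowers_le.2 hz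
  rw [← h r R]
  exact ⟨⟨hR (Subgroup.mem_zpowers y), (hle hy).1⟩, (hle hy).2⟩

theorem abelian_sylow {r : ℕ} [Fact r.Prime] (R : Sylow r G)
    (hcomm : ∀ a ∈ (R : Subgroup G), ∀ b ∈ (R : Subgroup G),
      Commute (a : G ⧸ Subgroup.center G) (b : G ⧸ Subgroup.center G))
    (hfull : ∀ a ∈ (R : Subgroup G), a ∉ Subgroup.center G →
      Nat.card (Subgroup.centralizer ({(a : G ⧸ Subgroup.center G)} : Set (G ⧸ Subgroup.center G))) = cq a) :
    IsMulCommutative (R : Subgroup G) := by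
  refine ⟨⟨fun a b => Subtype.ext ?_⟩⟩
  show (a : G) * b = b * a
  by_cases ha : (a : G) ∈ Subgroup.center G
  · exact (Subgroup.mem_center_iff.1 ha b).symm
  · exact ((mem_centralizer_of_card_eq (hfull a a.2 ha) (hcomm b b.2 a a.2)).eq).symm

/-- If a Sylow 2-subgroup is dihedral modulo the centre and lifts of involutions have full
centralisers then it meets `Z(G) ∩ G'` trivially. -/
theorem two_part (R : Sylow 2 G) {s k : G} (hs : s ∈ (R : Subgroup G)) (hk : k ∈ (R : Subgroup G))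
    (hs1 : (s : G ⧸ Subgroup.center G) ≠ 1) (hs2 : (s : G ⧸ Subgroup.center G) ^ 2 = 1)
    (hsk : ((s * k : G) : G ⧸ Subgroup.center G) ^ 2 = 1)
    (hgen : ∀ r ∈ (R : Subgroup G), ∃ i : ℤ, (r : G ⧸ Subgroup.center G) = (k : G ⧸ Subgroup.center G) ^ i ∨
      (r : G ⧸ Subgroup.center G) = (s : G ⧸ Subgroup.center G) * (k : G ⧸ Subgroup.center G) ^ i)
    (hfull : ∀ a : G, (a : G ⧸ Subgroup.center G) ≠ 1 → (a : G ⧸ Subgroup.center G) ^ 2 = 1 →
      Nat.card (Subgroup.centralizer ({(a : G ⧸ Subgroup.center G)} : Set (G ⧸ Subgroup.center G))) = cq a) :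
    (R : Subgroup G) ⊓ Subgroup.center G ⊓ commutator G = ⊥ := by
  haveI : Fact (Nat.Prime 2) := ⟨Nat.prime_two⟩
  set Z := Subgroup.center G
  have hcen : ∀ z ∈ Z, ∀ g : G, Commute g z := fun z hz g => Subgroup.mem_center_iff.1 hz g
  set z0 := s * k * s⁻¹ * k with hz0d
  have hk' : (s : G ⧸ Z) * k * (s : G ⧸ Z)⁻¹ = (k : G ⧸ Z)⁻¹ := by
    have hsi : (s : G ⧸ Z)⁻¹ = (s : G ⧸ Z) := inv_eq_of_mul_eq_one_right (by rw [← pow_two, hs2])
    have h1 : (s : G ⧸ Z) * k * ((s : G ⧸ Z) * k) = 1 := by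
      rw [← QuotientGroup.mk_mul, ← pow_two, hsk]
    rw [hsi]
    refine eq_inv_of_mul_eq_one_left ?_
    rw [← h1]; group
  have hz0 : z0 ∈ Z := by
    rw [← QuotientGroup.eq_one_iff, hz0d, QuotientGroup.mk_mul, QuotientGroup.mk_mul,
      QuotientGroup.mk_mul, QuotientGroup.mk_inv, hk']
    group
  -- the commutator `c`
  set c := s * k * s⁻¹ * k⁻¹ with hcd
  have hc : ∀ n : ℤ, c ^ n = k ^ (-(2 * n)) * z0 ^ n := by
    intro n
    have e : c = k ^ (-2 : ℤ) * z0 := by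
      have h1 : z0 = s * k * s⁻¹ * k := hz0d
      have h2 : c = z0 * k ^ (-2 : ℤ) := by rw [hcd, h1]; group
      rw [h2]
      exact ((hcen z0 hz0 _).eq).symm
    rw [e, (hcen z0 hz0 _).mul_zpow, ← zpow_mul]
    congr 2
    ring
  have hconjk : ∀ i : ℤ, s * k ^ i * s⁻¹ = k ^ (-i) * z0 ^ i := by
    intro i
    have e : s * k * s⁻¹ = k⁻¹ * z0 := by
      have h1 : z0 = s * k * s⁻¹ * k := hz0d
      have h2 : s * k * s⁻¹ = z0 * k⁻¹ := by rw [h1]; group
      rw [h2]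
      exact ((hcen z0 hz0 _).eq).symm
    rw [← conj_zpow, e, (hcen z0 hz0 _).mul_zpow, ← zpow_neg_one, ← zpow_mul, neg_one_mul]
  -- commutators of elements of `R` are powers of `c`
  have hform : ∀ r ∈ (R : Subgroup G), ∃ z ∈ Z, ∃ i : ℤ, r = k ^ i * z ∨ r = s * k ^ i * z := by
    intro r hr
    obtain ⟨i, hi | hi⟩ := hgen r hr
    · rw [← QuotientGroup.mk_zpow] at hi
      exact ⟨(k ^ i)⁻¹ * r, QuotientGroup.eq.1 hi.symm, i, Or.inl (mul_inv_cancel_left _ _).symm⟩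
    · rw [← QuotientGroup.mk_zpow, ← QuotientGroup.mk_mul] at hi
      exact ⟨(s * k ^ i)⁻¹ * r, QuotientGroup.eq.1 hi.symm, i, Or.inr (mul_inv_cancel_left _ _).symm⟩
  have hcentral : ∀ a b z w : G, z ∈ Z → w ∈ Z →
      (a * z) * (b * w) * (a * z)⁻¹ * (b * w)⁻¹ = a * b * a⁻¹ * b⁻¹ := by
    intro a b z w hz hw
    have e1 : (a * z) * (b * w) = a * b * (z * w) := by
      rw [mul_assoc a z, ← mul_assoc z b w, (hcen z hz b).symm.eq]; group
    have e2 : (b * w) * (a * z) = b * a * (z * w) := by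
      rw [mul_assoc b w, ← mul_assoc w a z, (hcen w hw a).symm.eq, mul_assoc a w z, (hcen z hz w).eq]
      group
    calc (a * z) * (b * w) * (a * z)⁻¹ * (b * w)⁻¹ = (a * z) * (b * w) * ((b * w) * (a * z))⁻¹ := by group
      _ = _ := by rw [e1, e2]; group
  have hR' : ∀ a ∈ (R : Subgroup G), ∀ b ∈ (R : Subgroup G), a * b * a⁻¹ * b⁻¹ ∈ Subgroup.zpowers c := by
    intro a ha b hb
    obtain ⟨z, hz, i, hi⟩ := hform a ha
    obtain ⟨w, hw, j, hj⟩ := hform b hb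
    have hkz : ∀ n : ℤ, k ^ (-(2 * n)) * z0 ^ n ∈ Subgroup.zpowers c := fun n => hc n ▸ ⟨n, rfl⟩
    have hz0c : ∀ (n : ℤ) (g : G), Commute g (z0 ^ n) := fun n g => (hcen z0 hz0 g).zpow_right n
    rcases hi with rfl | rfl <;> rcases hj with rfl | rfl <;> rw [hcentral _ _ _ _ hz hw]
    · rw [show k ^ i * k ^ j * (k ^ i)⁻¹ * (k ^ j)⁻¹ = 1 by group]
      exact one_mem _
    · have e : k ^ i * (s * k ^ j) * (k ^ i)⁻¹ * (s * k ^ j)⁻¹ = k ^ i * (s * k ^ (-i) * s⁻¹) := by group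
      rw [e, hconjk, neg_neg, ← mul_assoc, ← zpow_add]
      convert hkz (-i) using 3
      ring
    · have e : s * k ^ i * k ^ j * (s * k ^ i)⁻¹ * (k ^ j)⁻¹ = (s * k ^ j * s⁻¹) * k ^ (-j) := by group
      rw [e, hconjk, mul_assoc, ← (hz0c j _).eq, ← mul_assoc, ← zpow_add]
      convert hkz j using 3
      ring
    · have e : s * k ^ i * (s * k ^ j) * (s * k ^ i)⁻¹ * (s * k ^ j)⁻¹ =
          s * (k ^ i * (s * k ^ (j - i) * s⁻¹) * k ^ (-j)) * s⁻¹ := by group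
      have e2 : k ^ i * (k ^ (-(j - i)) * z0 ^ (j - i)) * k ^ (-j) = k ^ (2 * (i - j)) * z0 ^ (j - i) := by
        rw [mul_assoc, mul_assoc, ← (hz0c (j - i) _).eq, ← mul_assoc, ← mul_assoc, ← zpow_add, ← zpow_add]
        congr 2
        ring
      rw [e, hconjk, e2, show s * (k ^ (2 * (i - j)) * z0 ^ (j - i)) * s⁻¹ =
        (s * k ^ (2 * (i - j)) * s⁻¹) * (s * z0 ^ (j - i) * s⁻¹) by group, hconjk, (hz0c (j - i) s).eq,
        mul_inv_cancel_right, mul_assoc, ← zpow_add]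
      convert hkz (i - j) using 3
      ring
  -- transfer
  rw [eq_bot_iff]
  rintro z ⟨⟨hzR, hzZ⟩, hzG⟩
  rw [Subgroup.mem_bot]
  have hmem : z ∈ Subgroup.zpowers c := by
    let φ : (R : Subgroup G) →* Abelianization (R : Subgroup G) := Abelianization.of
    have key : ∀ (n : ℕ) (g₀ : G), g₀⁻¹ * z ^ n * g₀ ∈ (R : Subgroup G) → g₀⁻¹ * z ^ n * g₀ = z ^ n :=
      fun n g₀ _ => by rw [mul_assoc, ← ((hcen z hzZ g₀).pow_right n).eq, inv_mul_cancel_left]
    have h1 := MonoidHom.transfer_eq_pow φ z key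
    have h0 : MonoidHom.transfer φ z = 1 :=
      MonoidHom.mem_ker.1 (Abelianization.commutator_subset_ker _ hzG)
    rw [h0] at h1
    have h2 : (⟨z ^ (R : Subgroup G).index, MonoidHom.transfer_eq_pow_aux z key⟩ : (R : Subgroup G)) ∈
        commutator (R : Subgroup G) := by
      rw [← Abelianization.ker_of]; exact h1.symm
    have h3 : z ^ (R : Subgroup G).index ∈ Subgroup.zpowers c := by
      have hle : commutator (R : Subgroup G) ≤ (Subgroup.zpowers c).comap (R : Subgroup G).subtype := by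
        rw [commutator_def, Subgroup.commutator_le]
        intro a _ b _
        rw [Subgroup.mem_comap, commutatorElement_def]
        exact hR' a a.2 b b.2
      exact hle h2
    obtain ⟨n, hn⟩ := IsPGroup.iff_orderOf.1 R.isPGroup' ⟨z, hzR⟩
    rw [Subgroup.orderOf_mk] at hn
    obtain ⟨u, hu⟩ := exists_pow_eq_self_of_coprime (x := z) (n := (R : Subgroup G).index) (by
      rw [hn]; exact (((Nat.prime_two.coprime_iff_not_dvd).2 R.not_dvd_index).pow_left n).symm)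
    rw [← hu]
    exact pow_mem h3 u
  obtain ⟨n, hn⟩ := Subgroup.mem_zpowers_iff.1 hmem
  have hkn : (k : G ⧸ Z) ^ (-(2 * n)) = 1 := by
    rw [← QuotientGroup.mk_zpow, QuotientGroup.eq_one_iff]
    have : k ^ (-(2 * n)) = z * (z0 ^ n)⁻¹ := by rw [← hn, hc]; group
    rw [this]
    exact mul_mem hzZ (inv_mem (zpow_mem hz0 n))
  by_cases hk1 : (k : G ⧸ Z) = 1
  · have hkZ : k ∈ Z := (QuotientGroup.eq_one_iff k).1 hk1
    rw [← hn, hcd, (hcen k hkZ s).eq, mul_inv_cancel_right, mul_inv_cancel, one_zpow]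
  obtain ⟨α, hα⟩ := IsPGroup.iff_orderOf.1 R.isPGroup' ⟨k, hk⟩
  rw [Subgroup.orderOf_mk] at hα
  obtain ⟨β, -, hβ⟩ := (Nat.dvd_prime_pow Nat.prime_two).1 (hα ▸ orderOf_map_dvd (QuotientGroup.mk' Z) k)
  obtain ⟨β', rfl⟩ : ∃ β', β = β' + 1 := ⟨β - 1, by
    rcases β with _ | β
    · exact absurd (orderOf_eq_one_iff.1 hβ) hk1
    · rfl⟩
  change orderOf (k : G ⧸ Z) = 2 ^ (β' + 1) at hβ
  set h := 2 ^ β' with hhd
  have h2h : orderOf (k : G ⧸ Z) = 2 * h := by rw [hβ, hhd, pow_succ']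
  set T := k ^ (h : ℤ) with hTd
  have hT1 : (T : G ⧸ Z) ≠ 1 := by
    rw [hTd, QuotientGroup.mk_zpow, zpow_natCast, Ne, ← orderOf_dvd_iff_pow_eq_one, h2h]
    intro hd
    have := Nat.le_of_dvd (pow_pos two_pos _) hd
    have : 0 < h := pow_pos two_pos _
    omega
  have hT2 : (T : G ⧸ Z) * T = 1 := by
    rw [hTd, QuotientGroup.mk_zpow, zpow_natCast, ← pow_add, ← two_mul, ← h2h, pow_orderOf_eq_one]
  have hsT : Commute (T : G ⧸ Z) (s : G ⧸ Z) := by
    have e : (s : G ⧸ Z) * T * (s : G ⧸ Z)⁻¹ = (T : G ⧸ Z) := by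
      rw [hTd, QuotientGroup.mk_zpow, ← conj_zpow, hk', inv_zpow]
      refine inv_eq_of_mul_eq_one_right ?_
      rw [← QuotientGroup.mk_zpow]
      exact hT2
    exact (mul_inv_eq_iff_eq_mul.1 e).symm
  have hTs : Commute T s := mem_centralizer_of_card_eq (hfull s hs1 hs2) hsT
  have hch : c ^ (h : ℤ) = 1 := by
    have e := hconjk h
    rw [← hTd, show s * T * s⁻¹ = T by rw [← hTs.eq, mul_inv_cancel_right]] at e
    rw [hc]
    calc k ^ (-(2 * (h : ℤ))) * z0 ^ (h : ℤ) = k ^ (-(h : ℤ)) * (k ^ (-(h : ℤ)) * z0 ^ (h : ℤ)) := by group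
      _ = 1 := by rw [← e, hTd]; group
  obtain ⟨w, hw⟩ : ((2 * h : ℕ) : ℤ) ∣ -(2 * n) := by
    rw [← h2h]; exact orderOf_dvd_iff_zpow_eq_one.2 hkn
  rw [← hn, show n = (h : ℤ) * (-w) by push_cast at hw; linarith, zpow_mul, hch, one_zpow]

end CfsgLib.ClassSizesPSL
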