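import Cfsg.Agent.Lib.ClassSizesPSL.PSLFacts
import Cfsg.Agent.Lib.ClassSizesPSL.FromSizes
import Cfsg.Agent.Lib.ClassSizesPSL.EvenCase
import Cfsg.Agent.Lib.ClassSizesPSL.Split
import Cfsg.Agent.Lib.ClassicalLinear.BlockHom
import Cfsg.Agent.Lib.SharplyEven.SimpleZassenhaus

/-!
Groups with the class sizes of `PSL₂(q)`.
-/

set_option autoImplicit false
set_option linter.unusedSectionVars false
set_option linter.style.haveILetI false

namespace CfsgLib.ClassSizesPSL

variable {G : Type*} [Group G] [Finite G] {F : Type*} [Field F] [Fintype F]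

local notation "PS" => Matrix.ProjectiveSpecialLinearGroup (Fin 2) F

theorem mem_centralizer_map {X Y : Type*} [Group X] [Group Y] (e : X ≃* Y) {x y : X} :
    e y ∈ Subgroup.centralizer ({e x} : Set Y) ↔ y ∈ Subgroup.centralizer ({x} : Set X) := by
  rw [Subgroup.mem_centralizer_singleton_iff, Subgroup.mem_centralizer_singleton_iff, ← map_mul, ← map_mul,
    e.injective.eq_iff]

theorem index_centralizer_map {X Y : Type*} [Group X] [Group Y] [Finite X] (e : X ≃* Y) (x : X) :
    (Subgroup.centralizer ({e x} : Set Y)).index = (Subgroup.centralizer ({x} : Set X)).index := by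
  rw [← Subgroup.index_comap_of_surjective _ (f := e.toMonoidHom) e.surjective]
  congr 1
  ext y
  rw [Subgroup.mem_comap, MulEquiv.coe_toMonoidHom, mem_centralizer_map]

theorem csize_conj_mul_center (g x z : G) (hz : z ∈ Subgroup.center G) :
    csize (g * x * g⁻¹ * z) = csize x := by
  have h : Subgroup.centralizer ({g * x * g⁻¹ * z} : Set G) = Subgroup.centralizer ({g * x * g⁻¹} : Set G) := by
    generalize g * x * g⁻¹ = w
    ext c
    rw [Subgroup.mem_centralizer_singleton_iff, Subgroup.mem_centralizer_singleton_iff, mul_assoc w z c,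
      ← Subgroup.mem_center_iff.1 hz c, ← mul_assoc, ← mul_assoc, mul_left_inj]
  obtain ⟨e⟩ := ElementOrders.card_centralizer_conj g x
  have h1 := (Subgroup.centralizer ({g * x * g⁻¹} : Set G)).card_mul_index
  have h2 := (Subgroup.centralizer ({x} : Set G)).card_mul_index
  rw [← Nat.card_congr e.toEquiv] at h1
  show (Subgroup.centralizer ({g * x * g⁻¹ * z} : Set G)).index = (Subgroup.centralizer ({x} : Set G)).index
  rw [h]
  exact Nat.eq_of_mul_eq_mul_left Nat.card_pos (h1.trans h2.symm)

/-- Sylow subgroups are abelian modulo the centre. -/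
theorem sylow_comm (e : G ⧸ Subgroup.center G ≃* PS) {r : ℕ} [hr : Fact r.Prime] (R : Sylow r G)
    (hgood : r ≠ 2 ∨ 2 ∣ Fintype.card F) :
    ∀ a ∈ (R : Subgroup G), ∀ b ∈ (R : Subgroup G),
      Commute (a : G ⧸ Subgroup.center G) (b : G ⧸ Subgroup.center G) := by
  set Rb := (R : Subgroup G).map (QuotientGroup.mk' (Subgroup.center G)) with hRb
  have hp : IsPGroup r Rb := R.isPGroup'.map _
  intro a ha b hb
  by_cases htriv : Nontrivial Rb
  · haveI := hp.center_nontrivial
    obtain ⟨⟨⟨z, hzR⟩, hzc⟩, hz1⟩ := exists_ne (1 : Subgroup.center Rb)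
    have hz : z ≠ 1 := fun h => hz1 (Subtype.ext (Subtype.ext h))
    have hmem : ∀ c ∈ (R : Subgroup G), e c ∈ Subgroup.centralizer ({e z} : Set PS) := fun c hc => by
      rw [mem_centralizer_map]
      exact Subgroup.mem_centralizer_singleton_iff.2
        (congrArg Subtype.val (Subgroup.mem_center_iff.1 hzc ⟨_, c, hc, rfl⟩))
    have hez : e z ≠ 1 := fun h => hz (e.map_eq_one_iff.1 h)
    have hsq : (e z) ^ 2 ≠ 1 ∨ 2 ∣ Fintype.card F := hgood.imp_left fun h2 h => by
      rw [← map_pow, e.map_eq_one_iff] at h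
      obtain ⟨n, hn⟩ := IsPGroup.iff_orderOf.1 hp ⟨z, hzR⟩
      rw [Subgroup.orderOf_mk] at hn
      have hd := orderOf_dvd_of_pow_eq_one h
      rw [hn] at hd
      rcases n with _ | n
      · exact hz (orderOf_eq_one_iff.1 hn)
      · exact h2 ((Nat.prime_dvd_prime_iff_eq hr.out Nat.prime_two).1 ((dvd_pow_self r n.succ_ne_zero).trans hd))
    apply e.injective
    rw [map_mul, map_mul]
    exact centralizer_comm hez hsq _ (hmem a ha) _ (hmem b hb)
  · rw [not_nontrivial_iff_subsingleton] at htriv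
    have h1 : ∀ c ∈ (R : Subgroup G), (c : G ⧸ Subgroup.center G) = 1 := fun c hc =>
      congrArg Subtype.val (Subsingleton.elim (⟨_, c, hc, rfl⟩ : Rb) 1)
    rw [h1 a ha, h1 b hb]

/-- Direct decomposition when the centre meets the derived group trivially. -/
theorem exists_decomposition {H : Type*} [Group H] (e : G ⧸ Subgroup.center G ≃* H)
    (hperf : commutator H = ⊤) (h : Subgroup.center G ⊓ commutator G = ⊥) :
    ∃ N A : Subgroup G, N.Normal ∧ A ≤ Subgroup.center G ∧ N ⊓ A = ⊥ ∧ N ⊔ A = ⊤ ∧ Nonempty (N ≃* H) := by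
  set π := QuotientGroup.mk' (Subgroup.center G)
  have hmap : (commutator G).map (e.toMonoidHom.comp π) = ⊤ := by
    rw [commutator_def, Subgroup.map_commutator, Subgroup.map_top_of_surjective _
      (e.surjective.comp (QuotientGroup.mk'_surjective _)), ← commutator_def, hperf]
  refine ⟨commutator G, Subgroup.center G, inferInstance, le_rfl, by rw [inf_comm]; exact h, ?_, ?_⟩
  · rw [eq_top_iff]
    intro g _
    obtain ⟨n, hn, hne⟩ : e (π g) ∈ (commutator G).map (e.toMonoidHom.comp π) := hmap ▸ Subgroup.mem_top _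
    have hz : n⁻¹ * g ∈ Subgroup.center G := QuotientGroup.eq.1 (e.injective hne)
    rw [← mul_inv_cancel_left n g]
    exact mul_mem (Subgroup.mem_sup_left hn) (Subgroup.mem_sup_right hz)
  · refine ⟨MulEquiv.ofBijective ((e.toMonoidHom.comp π).comp (commutator G).subtype) ⟨?_, fun y => ?_⟩⟩
    · rw [injective_iff_map_eq_one]
      rintro ⟨n, hn⟩ h1
      have hz : n ∈ Subgroup.center G := (QuotientGroup.eq_one_iff n).1 (e.map_eq_one_iff.1 h1)
      have : n ∈ Subgroup.center G ⊓ commutator G := ⟨hz, hn⟩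
      rw [h, Subgroup.mem_bot] at this
      exact Subtype.ext this
    · obtain ⟨n, hn, hne⟩ : y ∈ (commutator G).map (e.toMonoidHom.comp π) := hmap ▸ Subgroup.mem_top _
      exact ⟨⟨n, hn⟩, hne⟩

theorem exists_prime_pow_card : ∃ p f : ℕ, p.Prime ∧ Fintype.card F = p ^ f := by
  obtain ⟨p, hp⟩ := CharP.exists F
  obtain ⟨n, hn, hq⟩ := FiniteField.card F p
  exact ⟨p, n, hn, hq⟩

theorem range_csize_eq (h : Set.range (fun g : G => (Subgroup.centralizer ({g} : Set G)).index) =
      Set.range (fun g : PS => (Subgroup.centralizer ({g} : Set PS)).index))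
    {M : Set ℕ} (hM : Set.range (fun g : PS => (Subgroup.centralizer ({g} : Set PS)).index) = M) :
    Set.range (fun g : G => csize g) = M := h.trans hM

/-- Odd `q`: the central quotient is `PSL₂(q)`. -/
theorem nonempty_equiv_odd (hodd : ¬ 2 ∣ Fintype.card F) (h7 : 7 ≤ Fintype.card F)
    (h : Set.range (fun g : G => (Subgroup.centralizer ({g} : Set G)).index) =
      Set.range (fun g : PS => (Subgroup.centralizer ({g} : Set PS)).index)) :
    Nonempty (G ⧸ Subgroup.center G ≃* PS) := by
  obtain ⟨ℓ, m, hq, hlm, hl, hl4, hm3⟩ := exists_params hodd h7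
  obtain ⟨p, f, hp, hpf⟩ := exists_prime_pow_card (F := F)
  obtain ⟨hP, -⟩ := odd_quotient hp hpf hq hlm hl hl4 hm3
    (range_csize_eq h (range_index hq hlm hl hl4 hm3))
  obtain ⟨-, -, K, _, _, hK, ⟨e⟩⟩ := odd_case hp hpf hP
  exact ⟨e.trans (CfsgLib.ClassicalLinear.pslCongr (FiniteField.ringEquivOfCardEq (K := K) (K' := F) hK))⟩

/-- Odd `q`: `G` is the direct product of `PSL₂(q)` and an abelian group. -/
theorem decomposition_odd (hodd : ¬ 2 ∣ Fintype.card F) (h7 : 7 ≤ Fintype.card F)
    (h : Set.range (fun g : G => (Subgroup.centralizer ({g} : Set G)).index) =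
      Set.range (fun g : PS => (Subgroup.centralizer ({g} : Set PS)).index)) :
    ∃ N A : Subgroup G, N.Normal ∧ A ≤ Subgroup.center G ∧ N ⊓ A = ⊥ ∧ N ⊔ A = ⊤ ∧ Nonempty (N ≃* PS) := by
  obtain ⟨ℓ, m, hq, hlm, hl, hl4, hm3⟩ := exists_params hodd h7
  obtain ⟨p, f, hp, hpf⟩ := exists_prime_pow_card (F := F)
  have hM := range_csize_eq h (range_index hq hlm hl hl4 hm3)
  obtain ⟨hP, hd⟩ := odd_quotient hp hpf hq hlm hl hl4 hm3 hM
  obtain ⟨hconj, hinv, -⟩ := odd_case hp hpf hP
  obtain ⟨e⟩ := nonempty_equiv_odd hodd h7 h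
  have hcase : ∀ a : G, a ∉ Subgroup.center G → ∀ r : ℕ, r.Prime → r ≠ 2 → r ∣ cq a → ¬ r ∣ csize a := by
    intro a ha r hr hr2 hrd hri
    have hmul := cq_mul_csize a
    rw [hd] at hmul
    have hmem : csize a ∈ Set.range (fun x : G => csize x) := ⟨a, rfl⟩
    rw [hM] at hmem
    have key : ∀ {b c : ℕ}, cq a = b → b.Coprime c → r ∣ c → False := fun hb hco hc => by
      rw [hb] at hrd
      exact hr.one_lt.ne' (eq_one_of_dvd_of_coprime (Nat.Coprime.coprime_dvd_left hrd hco) hc)
    have hq7 := hP.q_seven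
    rcases hmem with e' | e' | e' | e' | e'
    · exact ha (mem_center_of_csize_eq_one e')
    all_goals rw [e'] at hri hmul
    · refine key (Nat.eq_of_mul_eq_mul_right (show 0 < 2 * ℓ * m by positivity)
        (hmul.trans (show _ = Fintype.card F * (2 * ℓ * m) by ring))) ?_ hri
      exact Nat.Coprime.mul_right hP.cop_q2l hP.cop_qm
    · refine key (Nat.eq_of_mul_eq_mul_right (show 0 < 2 * Fintype.card F * ℓ by positivity)
        (hmul.trans (show _ = m * (2 * Fintype.card F * ℓ) by ring))) ?_ hri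
      rw [show 2 * Fintype.card F * ℓ = Fintype.card F * (2 * ℓ) by ring]
      exact Nat.Coprime.mul_right hP.cop_qm.symm hP.cop_m2l
    · have hri' : r ∣ Fintype.card F * m := by
        rw [mul_assoc] at hri
        exact (hr.dvd_mul.1 hri).resolve_left fun h2 => hr2 ((Nat.prime_dvd_prime_iff_eq hr Nat.prime_two).1 h2)
      refine key (Nat.eq_of_mul_eq_mul_right (show 0 < 2 * Fintype.card F * m by positivity)
        (hmul.trans (show _ = ℓ * (2 * Fintype.card F * m) by ring))) ?_ hri'
      exact Nat.Coprime.mul_right hP.cop_ql.symm hP.cop_lm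
    · refine key (Nat.eq_of_mul_eq_mul_right (show 0 < Fintype.card F * m by positivity)
        (hmul.trans (show _ = (2 * ℓ) * (Fintype.card F * m) by ring))) ?_ hri
      exact Nat.Coprime.mul_right hP.cop_q2l.symm hP.cop_m2l.symm
  refine exists_decomposition e ?_ (center_inf_commutator_eq_bot fun r _ R => ?_)
  · refine CfsgLib.ClassicalLinear.commutator_psl_eq_top (Or.inr
      (CfsgLib.ClassicalLinear.exists_sq_ne_one_of_four_le_card ?_))
    rw [Nat.card_eq_fintype_card]; omega
  by_cases hr2 : r = 2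
  · subst hr2
    -- an involution with full centraliser
    obtain ⟨x0, hx0⟩ : ∃ x0 : G, csize x0 = Fintype.card F * m := by
      have hmem : Fintype.card F * m ∈ Set.range (fun x : G => csize x) := by rw [hM]; simp
      exact hmem
    have h21 : 21 ≤ Fintype.card F * m := Nat.mul_le_mul h7 hm3
    have hx0z : x0 ∉ Subgroup.center G := fun hz => by
      have := csize_eq_one_of_mem_center hz
      omega
    have hx01 : (x0 : G ⧸ Subgroup.center G) ≠ 1 := fun e1 => hx0z ((QuotientGroup.eq_one_iff x0).1 e1)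
    have hcq0 : cq x0 = 2 * ℓ := by
      have h' := cq_mul_csize x0
      rw [hd, hx0] at h'
      exact Nat.eq_of_mul_eq_mul_right (show 0 < Fintype.card F * m by omega) (h'.trans (by ring))
    have hcc0 : Nat.card (Subgroup.centralizer ({(x0 : G ⧸ Subgroup.center G)} : Set (G ⧸ Subgroup.center G))) =
        2 * ℓ := by
      have hd' := cq_dvd_card_centralizer x0
      rw [hcq0] at hd'
      rcases hP.hc _ hx01 with e1 | e1 | e1 | e1
      · exfalso; rw [e1] at hd'; exact hP.q_odd ((dvd_mul_right 2 ℓ).trans hd')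
      · exfalso
        rw [e1] at hd'
        have h2m := (dvd_mul_right 2 ℓ).trans hd'
        obtain ⟨c, hc⟩ := hl
        omega
      · exfalso; rw [e1] at hd'
        have := Nat.le_of_dvd (by omega) hd'
        omega
      · exact e1
    have hx02 : (x0 : G ⧸ Subgroup.center G) ^ 2 = 1 := by
      apply e.injective
      rw [map_pow, map_one]
      refine sq_eq_one_of_index hq hlm hl hl4 hm3 ?_
      rw [index_centralizer_map]
      exact hP.index_2l hcc0
    obtain ⟨s, hs, k, hk, hs1, hs2, hsk1, hsk2, hgen⟩ := sylow_two_structure hq hlm hl hl4 hm3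
      (R.mapSurjective (f := e.toMonoidHom.comp (QuotientGroup.mk' (Subgroup.center G)))
        (e.surjective.comp (QuotientGroup.mk'_surjective _)))
    obtain ⟨s, hsR, rfl⟩ := hs
    obtain ⟨k, hkR, rfl⟩ := hk
    refine two_part R hsR hkR (fun e1 => hs1 ?_) (e.injective ?_) (e.injective ?_) (fun r hr => ?_) (fun a ha1 ha2 => ?_)
    · show e (s : G ⧸ Subgroup.center G) = 1
      rw [e1, map_one]
    · rw [map_pow, map_one]; exact hs2
    · rw [map_pow, map_one, QuotientGroup.mk_mul, map_mul]; exact hsk2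
    · obtain ⟨i, hi | hi⟩ := hgen _ ⟨r, hr, rfl⟩
      · refine ⟨i, Or.inl (e.injective ?_)⟩
        rw [map_zpow]; exact hi
      · refine ⟨i, Or.inr (e.injective ?_)⟩
        rw [map_mul, map_zpow]; exact hi
    · obtain ⟨g, hg⟩ := isConj_iff.1 (hconj (x0 : G ⧸ Subgroup.center G) (a : G ⧸ Subgroup.center G)
        (orderOf_eq_prime hx02 hx01) (orderOf_eq_prime ha2 ha1))
      obtain ⟨g, rfl⟩ := QuotientGroup.mk_surjective g
      have hz : (g * x0 * g⁻¹)⁻¹ * a ∈ Subgroup.center G := QuotientGroup.eq.1 (by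
        rw [QuotientGroup.mk_mul, QuotientGroup.mk_mul, QuotientGroup.mk_inv, hg])
      have hia : csize a = Fintype.card F * m := by
        rw [← mul_inv_cancel_left (g * x0 * g⁻¹) a, csize_conj_mul_center g x0 _ hz, hx0]
      have h' := cq_mul_csize a
      rw [hd, hia] at h'
      rw [hinv _ (orderOf_eq_prime ha2 ha1)]
      exact (Nat.eq_of_mul_eq_mul_right (show 0 < Fintype.card F * m by omega) (h'.trans (by ring))).symm
  · refine CfsgLib.PGroups.abelian_inf_center_inf_commutator R
      (abelian_sylow R (sylow_comm e R (Or.inl hr2)) fun a haR ha => ?_)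
    obtain ⟨k, hk⟩ := IsPGroup.iff_orderOf.1 R.isPGroup' ⟨a, haR⟩
    rw [Subgroup.orderOf_mk] at hk
    have hr : r.Prime := Fact.out
    obtain ⟨j, hj, hjd⟩ := card_centralizer_primary hr hk
    rw [hj, pow_eq_one_of_dvd hr (hcase a ha r hr hr2 (prime_dvd_cq hr hk ha)) hjd, mul_one]

/-- Even `q`: `G` is the direct product of `PSL₂(q)` and an abelian group. -/
theorem decomposition_even (heven : 2 ∣ Fintype.card F) (h2 : 2 < Fintype.card F)
    (h : Set.range (fun g : G => (Subgroup.centralizer ({g} : Set G)).index) =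
      Set.range (fun g : PS => (Subgroup.centralizer ({g} : Set PS)).index)) :
    ∃ N A : Subgroup G, N.Normal ∧ A ≤ Subgroup.center G ∧ N ⊓ A = ⊥ ∧ N ⊔ A = ⊤ ∧ Nonempty (N ≃* PS) := by
  obtain ⟨p, f, hp, hpf⟩ := exists_prime_pow_card (F := F)
  obtain rfl : p = 2 := ((Nat.prime_dvd_prime_iff_eq Nat.prime_two hp).1
    (Nat.prime_two.dvd_of_dvd_pow (hpf ▸ heven))).symm
  have hq4 : 4 ≤ Fintype.card F := by omega
  have hM := range_csize_eq h (range_index_even heven h2)
  obtain ⟨hc, hd⟩ := even_quotient hpf hq4 hM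
  obtain ⟨K, _, _, hK, ⟨e0⟩⟩ := even_case hpf hq4 (by rw [← Subgroup.index_eq_card, hd]) hc
  have hKeven : Even (Fintype.card K) := even_iff_two_dvd.2 (hK ▸ heven)
  let e : G ⧸ Subgroup.center G ≃* PS := (e0.trans (MulEquiv.ofBijective _
    (CfsgLib.SharplyEven.SimpleZassenhaus.toPGL_bijective_of_even hKeven)).symm).trans
      (CfsgLib.ClassicalLinear.pslCongr (FiniteField.ringEquivOfCardEq (K := K) (K' := F) hK))
  refine exists_decomposition e ?_ (center_inf_commutator_eq_bot fun r _ R => ?_)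
  · refine CfsgLib.ClassicalLinear.commutator_psl_eq_top (Or.inr
      (CfsgLib.ClassicalLinear.exists_sq_ne_one_of_four_le_card ?_))
    rw [Nat.card_eq_fintype_card]; omega
  refine CfsgLib.PGroups.abelian_inf_center_inf_commutator R
    (abelian_sylow R (sylow_comm e R (Or.inr heven)) fun a haR ha => ?_)
  obtain ⟨k, hk⟩ := IsPGroup.iff_orderOf.1 R.isPGroup' ⟨a, haR⟩
  rw [Subgroup.orderOf_mk] at hk
  have hr : r.Prime := Fact.out
  obtain ⟨j, hj, hjd⟩ := card_centralizer_primary hr hk
  have hrd := prime_dvd_cq hr hk ha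
  have hnd : ¬ r ∣ csize a := by
    intro hri
    have hmul := cq_mul_csize a
    rw [hd] at hmul
    have hmem : csize a ∈ Set.range (fun x : G => csize x) := ⟨a, rfl⟩
    rw [hM] at hmem
    set q := Fintype.card F
    have hqm : Nat.Coprime q (q - 1) := by
      rw [hpf]; exact ((Nat.prime_two.coprime_iff_not_dvd).2 (by rw [← hpf]; omega)).pow_left f
    have hqp : Nat.Coprime q (q + 1) := Nat.coprime_self_add_right.2 (Nat.coprime_one_right q)
    have hpm : Nat.Coprime (q + 1) (q - 1) := by
      rw [show q + 1 = 2 + (q - 1) by omega, Nat.coprime_add_self_left]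
      exact (Nat.prime_two.coprime_iff_not_dvd).2 (by omega)
    have key : ∀ {b c : ℕ}, cq a = b → b.Coprime c → r ∣ c → False := fun hb hco hc => by
      rw [hb] at hrd
      exact hr.one_lt.ne' (eq_one_of_dvd_of_coprime (Nat.Coprime.coprime_dvd_left hrd hco) hc)
    have h12 : 4 * 3 ≤ q * (q - 1) := Nat.mul_le_mul hq4 (by omega)
    have h20 : 4 * 5 ≤ q * (q + 1) := Nat.mul_le_mul hq4 (by omega)
    have h15 : 3 * 5 ≤ (q - 1) * (q + 1) := Nat.mul_le_mul (by omega) (by omega)
    rcases hmem with e' | e' | e' | e'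
    · exact ha (mem_center_of_csize_eq_one e')
    all_goals rw [e'] at hri hmul
    · exact key (Nat.eq_of_mul_eq_mul_right (show 0 < (q - 1) * (q + 1) by omega)
        (hmul.trans (show _ = q * ((q - 1) * (q + 1)) by ring))) (Nat.Coprime.mul_right hqm hqp) hri
    · exact key (Nat.eq_of_mul_eq_mul_right (show 0 < q * (q - 1) by omega)
        (hmul.trans (show _ = (q + 1) * (q * (q - 1)) by ring))) (Nat.Coprime.mul_right hqp.symm hpm) hri
    · exact key (Nat.eq_of_mul_eq_mul_right (show 0 < q * (q + 1) by omega)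
        (hmul.trans (show _ = (q - 1) * (q * (q + 1)) by ring))) (Nat.Coprime.mul_right hqm.symm hpm.symm) hri
  rw [hj, pow_eq_one_of_dvd hr hnd hjd, mul_one]

end CfsgLib.ClassSizesPSL
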